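import Mathlib
import Cfsg.Prelude.Def_LinearParabolics

/-! Parabolic subgroups of GL_n for arbitrary labellings, permutation matrices, Bruhat decomposition,
double cosets and orbits on pairs of flags. -/

set_option autoImplicit false

namespace Cfsg.Agent.H8.GLP

open scoped MatrixGroups
open Matrix

section basic

variable {n : ℕ} {F : Type*} [Field F]

/-- block upper triangular matrices for the labelling `a` -/
def PG (F : Type*) [Field F] (a : Fin n → ℕ) : Subgroup (GL (Fin n) F) where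
  carrier := {g | (g : Matrix (Fin n) (Fin n) F).BlockTriangular a}
  mul_mem' := fun {x} {y} ha hb => by
    change ((x : Matrix (Fin n) (Fin n) F) * (y : Matrix (Fin n) (Fin n) F)).BlockTriangular a
    exact Matrix.BlockTriangular.mul ha hb
  one_mem' := by
    change (1 : Matrix (Fin n) (Fin n) F).BlockTriangular a
    exact Matrix.blockTriangular_one
  inv_mem' := fun {x} ha => by
    change ((x⁻¹ : GL (Fin n) F) : Matrix (Fin n) (Fin n) F).BlockTriangular a
    have : Invertible (x : Matrix (Fin n) (Fin n) F) := x.invertible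
    rw [Matrix.coe_units_inv]
    exact Matrix.blockTriangular_inv_of_blockTriangular ha

theorem mem_PG {a : Fin n → ℕ} {g : GL (Fin n) F} :
    g ∈ PG F a ↔ ∀ i j, a j < a i → (g : Matrix (Fin n) (Fin n) F) i j = 0 :=
  ⟨fun h i j hij => h hij, fun h i j hij => h i j hij⟩

theorem parabolic_eq (μ : Fin n → ℕ) : parabolicGL n F μ = PG F (compLabel μ) := rfl

/-- Young subgroup of a labelling -/
def YG (a : Fin n → ℕ) : Subgroup (Equiv.Perm (Fin n)) where
  carrier := {σ | ∀ i, a (σ i) = a i}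
  mul_mem' := fun {x} {y} ha hb i => by
    change a (x (y i)) = a i
    rw [ha, hb]
  one_mem' := fun _ => rfl
  inv_mem' := fun {x} ha i => by
    have h := ha (x⁻¹ i)
    have e : x (x⁻¹ i) = i := by simp
    rw [e] at h
    exact h.symm

theorem mem_YG {a : Fin n → ℕ} {σ : Equiv.Perm (Fin n)} : σ ∈ YG a ↔ ∀ i, a (σ i) = a i := Iff.rfl

theorem young_eq (μ : Fin n → ℕ) : youngSubgroup μ = YG (compLabel μ) := rfl

/-- permutation matrices -/
def pmat (F : Type*) [Field F] (w : Equiv.Perm (Fin n)) : Matrix (Fin n) (Fin n) F :=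
  Matrix.of fun i j => if i = w j then 1 else 0

theorem pmat_mul (v w : Equiv.Perm (Fin n)) : pmat F (v * w) = pmat F v * pmat F w := by
  ext i j
  rw [Matrix.mul_apply]
  simp only [pmat, Matrix.of_apply, Equiv.Perm.coe_mul, Function.comp_apply]
  rw [Finset.sum_eq_single (w j)]
  · rw [if_pos rfl, mul_one]; rfl
  · intro b _ hb
    rw [if_neg hb, mul_zero]
  · intro h; exact absurd (Finset.mem_univ _) h

theorem pmat_one : pmat F (1 : Equiv.Perm (Fin n)) = 1 := by
  ext i j
  rw [Matrix.one_apply]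
  rfl

/-- permutation matrices as a hom -/
def pm (F : Type*) [Field F] : Equiv.Perm (Fin n) →* GL (Fin n) F where
  toFun w := ⟨pmat F w, pmat F w⁻¹, by rw [← pmat_mul, mul_inv_cancel, pmat_one],
    by rw [← pmat_mul, inv_mul_cancel, pmat_one]⟩
  map_one' := by ext1; exact pmat_one
  map_mul' := fun v w => by ext1; exact pmat_mul v w

theorem pm_apply (w : Equiv.Perm (Fin n)) (i j : Fin n) :
    ((pm F w : GL (Fin n) F) : Matrix (Fin n) (Fin n) F) i j = if i = w j then 1 else 0 := rfl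

theorem mul_pm (A : Matrix (Fin n) (Fin n) F) (w : Equiv.Perm (Fin n)) (i j : Fin n) :
    (A * ((pm F w : GL (Fin n) F) : Matrix (Fin n) (Fin n) F)) i j = A i (w j) := by
  rw [Matrix.mul_apply]
  simp only [pm_apply]
  rw [Finset.sum_eq_single (w j)]
  · simp
  · intro b _ hb
    rw [if_neg hb, mul_zero]
  · intro h; exact absurd (Finset.mem_univ _) h

theorem pm_mulVec (w : Equiv.Perm (Fin n)) (v : Fin n → F) (i : Fin n) :
    (((pm F w : GL (Fin n) F) : Matrix (Fin n) (Fin n) F) *ᵥ v) i = v (w⁻¹ i) := by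
  rw [Matrix.mulVec, dotProduct]
  simp only [pm_apply]
  rw [Finset.sum_eq_single (w⁻¹ i)]
  · simp
  · intro b _ hb
    rw [if_neg, zero_mul]
    intro h
    apply hb
    rw [h]; simp
  · intro h; exact absurd (Finset.mem_univ _) h

theorem pm_mem_PG {a : Fin n → ℕ} {w : Equiv.Perm (Fin n)} (h : w ∈ YG a) : pm F w ∈ PG F a := by
  rw [mem_PG]
  intro i j hij
  rw [pm_apply, if_neg]
  intro e
  rw [e, h j] at hij
  exact lt_irrefl _ hij

end basic

section bruhat

variable {n : ℕ} {F : Type*} [Field F]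

theorem upper_le {a : Fin n → ℕ} (ha : Monotone a) : PG F (fun i : Fin n => i.val) ≤ PG F a := by
  intro g hg
  rw [mem_PG] at hg ⊢
  intro i j hij
  apply hg
  by_contra h
  push Not at h
  exact absurd (ha (show i ≤ j from h)) (not_le.mpr hij)

open Classical in
theorem bruhat (g : GL (Fin n) F) : ∃ b ∈ PG F (fun i : Fin n => i.val), ∃ b' ∈ PG F (fun i : Fin n => i.val),
    ∃ w : Equiv.Perm (Fin n), g = b * pm F w * b' := by
  -- vectors
  have key : ∀ i : Fin n, ∃ (k : ℕ) (v : Fin n → F), v i = 1 ∧ (∀ r, i < r → v r = 0) ∧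
      (∀ r : Fin n, k ≤ r.val → (((g⁻¹ : GL (Fin n) F) : Matrix (Fin n) (Fin n) F) *ᵥ v) r = 0) ∧
      ∀ (k' : ℕ) (v' : Fin n → F), v' i = 1 → (∀ r, i < r → v' r = 0) →
      (∀ r : Fin n, k' ≤ r.val → (((g⁻¹ : GL (Fin n) F) : Matrix (Fin n) (Fin n) F) *ᵥ v') r = 0) → k ≤ k' := by
    intro i
    have hex : ∃ k : ℕ, ∃ v : Fin n → F, v i = 1 ∧ (∀ r, i < r → v r = 0) ∧
      (∀ r : Fin n, k ≤ r.val → (((g⁻¹ : GL (Fin n) F) : Matrix (Fin n) (Fin n) F) *ᵥ v) r = 0) := by
      refine ⟨n, Pi.single i 1, by simp, fun r hr => by rw [Pi.single_eq_of_ne (ne_of_gt hr)], fun r hr => ?_⟩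
      exact absurd r.isLt (not_lt.mpr hr)
    obtain ⟨v, h1, h2, h3⟩ := Nat.find_spec hex
    exact ⟨Nat.find hex, v, h1, h2, h3, fun k' v' a1 a2 a3 => Nat.find_min' hex ⟨v', a1, a2, a3⟩⟩
  choose k v h1 h2 h3 h4 using key
  have hinj : ∀ u : Fin n → F, ((g⁻¹ : GL (Fin n) F) : Matrix (Fin n) (Fin n) F) *ᵥ u = 0 → u = 0 := by
    intro u hu
    have : ((g : GL (Fin n) F) : Matrix (Fin n) (Fin n) F) *ᵥ (((g⁻¹ : GL (Fin n) F) : Matrix (Fin n) (Fin n) F) *ᵥ u) = 0 := by
      rw [hu, Matrix.mulVec_zero]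
    rwa [Matrix.mulVec_mulVec, ← Units.val_mul, mul_inv_cancel, Units.val_one, Matrix.one_mulVec] at this
  have hkpos : ∀ i, 0 < k i := by
    intro i
    by_contra h
    have h0 : k i = 0 := by omega
    have : v i = 0 := by
      apply hinj
      funext r
      exact h3 i r (by omega)
    have := congrFun this i
    rw [h1] at this
    exact one_ne_zero this
  have hkn : ∀ i, k i ≤ n := by
    intro i
    refine h4 i n (Pi.single i 1) (by simp) (fun r hr => by rw [Pi.single_eq_of_ne (ne_of_gt hr)]) (fun r hr => ?_)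
    exact absurd r.isLt (not_lt.mpr hr)
  let w₀ : Fin n → Fin n := fun i => ⟨k i - 1, by have := hkpos i; have := hkn i; omega⟩
  have hw₀ : ∀ i, (w₀ i).val + 1 = k i := fun i => by
    have := hkpos i
    show k i - 1 + 1 = k i
    omega
  have hne : ∀ i, (((g⁻¹ : GL (Fin n) F) : Matrix (Fin n) (Fin n) F) *ᵥ (v i)) (w₀ i) ≠ 0 := by
    intro i h0
    have := h4 i (w₀ i).val (v i) (h1 i) (h2 i) (fun r hr => by
      rcases Nat.eq_or_lt_of_le hr with h | h
      · have : w₀ i = r := Fin.ext h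
        rw [← this]; exact h0
      · exact h3 i r (by have := hw₀ i; omega))
    have := hw₀ i
    omega
  have hinjw : ∀ i j, i < j → w₀ i ≠ w₀ j := by
    intro i j hij he
    let c : F := (((g⁻¹ : GL (Fin n) F) : Matrix (Fin n) (Fin n) F) *ᵥ (v j)) (w₀ j) /
      (((g⁻¹ : GL (Fin n) F) : Matrix (Fin n) (Fin n) F) *ᵥ (v i)) (w₀ i)
    have hk : k i = k j := by rw [← hw₀, ← hw₀, he]
    have := h4 j (w₀ j).val (v j - c • v i) (by
        rw [Pi.sub_apply, Pi.smul_apply, h1, h2 i j hij, smul_zero, sub_zero])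
      (fun r hr => by
        rw [Pi.sub_apply, Pi.smul_apply, h2 j r hr, h2 i r (lt_trans hij hr), smul_zero, sub_zero])
      (fun r hr => by
        rw [Matrix.mulVec_sub, Matrix.mulVec_smul, Pi.sub_apply, Pi.smul_apply, smul_eq_mul]
        rcases Nat.eq_or_lt_of_le hr with h | h
        · have hr' : w₀ j = r := Fin.ext h
          rw [← hr']
          show _ - (_ / _) * _ = 0
          rw [show (((g⁻¹ : GL (Fin n) F) : Matrix (Fin n) (Fin n) F) *ᵥ (v i)) (w₀ j) =
            (((g⁻¹ : GL (Fin n) F) : Matrix (Fin n) (Fin n) F) *ᵥ (v i)) (w₀ i) by rw [he],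
            div_mul_cancel₀ _ (hne i), sub_self]
        · rw [h3 j r (by have := hw₀ j; omega), h3 i r (by have := hw₀ j; omega), mul_zero, sub_zero])
    have := hw₀ j
    omega
  have hinj2 : Function.Injective w₀ := by
    intro i j he
    rcases lt_trichotomy i j with h | h | h
    · exact absurd he (hinjw i j h)
    · exact h
    · exact absurd he.symm (hinjw j i h)
  let w : Equiv.Perm (Fin n) := Equiv.ofBijective w₀ (Finite.injective_iff_bijective.mp hinj2)
  let bm : Matrix (Fin n) (Fin n) F := Matrix.of fun r i => v i r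
  have hbt : bm.BlockTriangular id := fun r i hri => h2 i r hri
  have hdet : bm.det = 1 := by
    rw [Matrix.det_of_upperTriangular hbt]
    apply Finset.prod_eq_one
    intro i _
    exact h1 i
  let b : GL (Fin n) F := Matrix.GeneralLinearGroup.mk'' bm (by rw [hdet]; exact isUnit_one)
  have hbv : ((b : GL (Fin n) F) : Matrix (Fin n) (Fin n) F) = bm := rfl
  have hb : b ∈ PG F (fun i : Fin n => i.val) := by
    rw [mem_PG]
    intro r i hri
    rw [hbv]
    exact h2 i r hri
  let c : GL (Fin n) F := g⁻¹ * b * pm F w⁻¹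
  have hc : c ∈ PG F (fun i : Fin n => i.val) := by
    rw [mem_PG]
    intro r j hrj
    show ((g⁻¹ * b * pm F w⁻¹ : GL (Fin n) F) : Matrix (Fin n) (Fin n) F) r j = 0
    rw [Units.val_mul, mul_pm, Units.val_mul, hbv]
    have : (((g⁻¹ : GL (Fin n) F) : Matrix (Fin n) (Fin n) F) * bm) r (w⁻¹ j) =
      (((g⁻¹ : GL (Fin n) F) : Matrix (Fin n) (Fin n) F) *ᵥ (v (w⁻¹ j))) r := by
      rw [Matrix.mul_apply, Matrix.mulVec, dotProduct]
      rfl
    rw [this]
    apply h3
    have e : w₀ (w⁻¹ j) = j := by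
      show w (w⁻¹ j) = j
      simp
    have := hw₀ (w⁻¹ j)
    rw [e] at this
    have hrj' : j.val < r.val := hrj
    omega
  refine ⟨b, hb, c⁻¹, Subgroup.inv_mem _ hc, w⁻¹, ?_⟩
  show g = b * pm F w⁻¹ * (g⁻¹ * b * pm F w⁻¹)⁻¹
  group

end bruhat

section counting

variable {n : ℕ}

/-- relative position matrix -/
def cnt (a b : Fin n → ℕ) (w : Equiv.Perm (Fin n)) : ℕ → ℕ → ℕ := fun s t =>
  (Finset.univ.filter fun i : Fin n => a i = s ∧ b (w⁻¹ i) = t).card

def cum (a b : Fin n → ℕ) (w : Equiv.Perm (Fin n)) (s t : ℕ) : ℕ :=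
  (Finset.univ.filter fun i : Fin n => a i < s ∧ b (w⁻¹ i) < t).card

theorem cum_cnt (a b : Fin n → ℕ) (w : Equiv.Perm (Fin n)) (s t : ℕ) :
    cum a b w (s+1) (t+1) + cum a b w s t = cum a b w s (t+1) + cum a b w (s+1) t + cnt a b w s t := by
  simp only [cum, cnt, Finset.card_filter]
  rw [← Finset.sum_add_distrib, ← Finset.sum_add_distrib, ← Finset.sum_add_distrib]
  apply Finset.sum_congr rfl
  intro i _
  split_ifs <;> omega

theorem cnt_of_cum {a b : Fin n → ℕ} {w w' : Equiv.Perm (Fin n)} (h : ∀ s t, cum a b w s t = cum a b w' s t) :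
    cnt a b w = cnt a b w' := by
  funext s t
  have h1 := cum_cnt a b w s t
  have h2 := cum_cnt a b w' s t
  rw [h, h, h, h] at h1
  omega

theorem exists_perm_of_fiber {α : Type*} [DecidableEq α] (f g : Fin n → α)
    (h : ∀ c, (Finset.univ.filter fun i => f i = c).card = (Finset.univ.filter fun i => g i = c).card) :
    ∃ σ : Equiv.Perm (Fin n), ∀ i, f (σ i) = g i := by
  have e : ∀ c, Nonempty ({i // g i = c} ≃ {i // f i = c}) := by
    intro c
    apply Fintype.card_eq.mp
    rw [Fintype.card_subtype, Fintype.card_subtype, h]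
  exact ⟨Equiv.ofFiberEquiv (fun c => (e c).some), fun i => Equiv.ofFiberEquiv_map _ i⟩

theorem exists_of_cnt {a b : Fin n → ℕ} {w w' : Equiv.Perm (Fin n)} (h : cnt a b w = cnt a b w') :
    ∃ σ ∈ YG a, ∃ τ ∈ YG b, w' = σ * w * τ := by
  obtain ⟨σ, hσ⟩ := exists_perm_of_fiber (fun i => (a i, b (w⁻¹ i))) (fun i => (a i, b (w'⁻¹ i))) (by
    rintro ⟨s, t⟩
    have := congrFun (congrFun h s) t
    simp only [cnt] at this
    simp only [Prod.mk.injEq]
    exact this)
  refine ⟨σ⁻¹, Subgroup.inv_mem _ (fun i => (Prod.ext_iff.mp (hσ i)).1), w⁻¹ * σ * w', fun i => ?_, by group⟩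
  have := (Prod.ext_iff.mp (hσ (w' i))).2
  simp only at this
  show b (w⁻¹ (σ (w' i))) = b i
  rw [this]
  simp

theorem cnt_of_exists {a b : Fin n → ℕ} {w w' σ τ : Equiv.Perm (Fin n)} (hσ : σ ∈ YG a) (hτ : τ ∈ YG b)
    (h : w' = σ * w * τ) : cnt a b w = cnt a b w' := by
  funext s t
  simp only [cnt]
  apply Finset.card_bij (fun i _ => σ i)
  · intro i hi
    simp only [Finset.mem_filter, Finset.mem_univ, true_and] at hi ⊢
    refine ⟨by rw [hσ i]; exact hi.1, ?_⟩
    rw [h]
    have : (σ * w * τ)⁻¹ (σ i) = τ⁻¹ (w⁻¹ i) := by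
      simp [_root_.mul_inv_rev]
    rw [this, (Subgroup.inv_mem _ hτ) _]
    exact hi.2
  · intro i _ j _ e
    exact σ.injective e
  · intro j hj
    simp only [Finset.mem_filter, Finset.mem_univ, true_and] at hj
    refine ⟨σ⁻¹ j, ?_, by simp⟩
    simp only [Finset.mem_filter, Finset.mem_univ, true_and]
    refine ⟨by rw [(Subgroup.inv_mem _ hσ) _]; exact hj.1, ?_⟩
    have e2 := hj.2
    rw [h] at e2
    have : (σ * w * τ)⁻¹ j = τ⁻¹ (w⁻¹ (σ⁻¹ j)) := by
      simp [_root_.mul_inv_rev]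
    rw [this, (Subgroup.inv_mem _ hτ) _] at e2
    exact e2

end counting

end Cfsg.Agent.H8.GLP
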