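import Mathlib

set_option autoImplicit false

namespace Cfsg.Agent.H8.Law

open Polynomial

/-- the sequence of involutions of a word -/
def seq : List (ℕ × Bool) → List ℕ
  | [] => []
  | (i, true) :: L => 2 * i :: (2 * i + 1) :: seq L
  | (i, false) :: L => (2 * i + 1) :: 2 * i :: seq L

theorem seq_chain (L : List (ℕ × Bool)) (h : FreeGroup.IsReduced L) : (seq L).IsChain (· ≠ ·) := by
  induction L with
  | nil => exact List.isChain_nil
  | cons x L ih =>
    cases L with
    | nil =>
      obtain ⟨i, b⟩ := x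
      cases b <;> simp [seq]
    | cons y L =>
      rw [FreeGroup.IsReduced, List.isChain_cons_cons] at h
      have h1 := ih h.2
      obtain ⟨i, b⟩ := x
      obtain ⟨i', b'⟩ := y
      have h2 : i = i' → b = b' := h.1
      cases b <;> cases b' <;> simp only [seq, List.isChain_cons_cons] at h1 ⊢ <;> refine ⟨by omega, ?_, h1.1, h1.2⟩ <;> intro h3
      · omega
      · have : i = i' := by omega
        exact absurd (h2 this) (by simp)
      · have : i = i' := by omega
        exact absurd (h2 this) (by simp)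
      · omega

theorem seq_prod {G : Type*} [Group G] (z : ℕ → G) (hz : ∀ j, z j * z j = 1) (L : List (ℕ × Bool)) :
    (L.map (fun x => cond x.2 (z (2 * x.1) * z (2 * x.1 + 1)) (z (2 * x.1) * z (2 * x.1 + 1))⁻¹)).prod = ((seq L).map z).prod := by
  induction L with
  | nil => rfl
  | cons x L ih =>
    obtain ⟨i, b⟩ := x
    have hinv : ∀ j, (z j)⁻¹ = z j := fun j => inv_eq_of_mul_eq_one_left (hz j)
    cases b
    · rw [List.map_cons, List.prod_cons, ih]
      simp only [seq, List.map_cons, List.prod_cons, cond_false]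
      rw [_root_.mul_inv_rev, hinv, hinv, mul_assoc]
    · rw [List.map_cons, List.prod_cons, ih]
      simp only [seq, List.map_cons, List.prod_cons, cond_true]
      rw [mul_assoc]

theorem lift_eq {G : Type*} [Group G] (z : ℕ → G) (hz : ∀ j, z j * z j = 1) (w : FreeGroup ℕ) :
    FreeGroup.lift (fun i => z (2 * i) * z (2 * i + 1)) w = ((seq w.toWord).map z).prod := by
  conv_lhs => rw [← FreeGroup.mk_toWord (x := w)]
  rw [FreeGroup.lift_mk, seq_prod z hz]

theorem word_chain (w : FreeGroup ℕ) : (seq w.toWord).IsChain (· ≠ ·) := seq_chain _ FreeGroup.isReduced_toWord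

theorem word_ne {w : FreeGroup ℕ} (hw : w ≠ 1) : ∃ j j' L, seq w.toWord = j :: j' :: L := by
  obtain ⟨L, hL⟩ : ∃ L, L = w.toWord := ⟨_, rfl⟩
  have hne : L ≠ [] := by
    rw [hL]
    intro h
    exact hw (FreeGroup.toWord_eq_nil_iff.1 h)
  rw [← hL]
  cases L with
  | nil => exact absurd rfl hne
  | cons x L =>
    obtain ⟨i, b⟩ := x
    cases b
    · exact ⟨_, _, _, rfl⟩
    · exact ⟨_, _, _, rfl⟩

/-! ## permutations -/

section perm

/-- the involution on `Fin (k+1)`-like points (here on ℕ) attached to the label `j` of the path `L` -/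
def stepF (L : List ℕ) (j : ℕ) (x : ℕ) : ℕ :=
  if L[x]? = some j then x + 1 else if 0 < x ∧ L[x - 1]? = some j then x - 1 else x

theorem stepF_inv (L : List ℕ) (h : L.IsChain (· ≠ ·)) (j : ℕ) : Function.Involutive (stepF L j) := by
  have hch : ∀ i a b, L[i]? = some a → L[i + 1]? = some b → a ≠ b := by
    intro i a b ha hb
    rw [List.isChain_iff_getElem] at h
    obtain ⟨h1, h2⟩ := List.getElem?_eq_some_iff.1 ha
    obtain ⟨h3, h4⟩ := List.getElem?_eq_some_iff.1 hb
    have := h i (by omega)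
    rw [h2, h4] at this
    exact this
  intro x
  unfold stepF
  by_cases h1 : L[x]? = some j
  · have h2 : L[x + 1]? ≠ some j := fun h3 => hch x j j h1 h3 rfl
    simp [h1, h2]
  · by_cases h2 : 0 < x ∧ L[x - 1]? = some j
    · obtain ⟨y, rfl⟩ : ∃ y, x = y + 1 := ⟨x - 1, by omega⟩
      have h3 : L[y]? = some j := by simpa using h2.2
      simp [h1, h3]
    · have h2' : ¬ (0 < x ∧ L[x - 1]? = some j) := h2
      simp only [if_neg h1, if_neg h2']

theorem stepF_lt (L : List ℕ) (j x : ℕ) (hx : x < L.length + 1) : stepF L j x < L.length + 1 := by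
  unfold stepF
  split_ifs with h1 h2
  · obtain ⟨h3, _⟩ := List.getElem?_eq_some_iff.1 h1
    omega
  · omega
  · exact hx

def stepP (L : List ℕ) (h : L.IsChain (· ≠ ·)) (j : ℕ) : Equiv.Perm (Fin (L.length + 1)) :=
  Function.Involutive.toPerm (fun x => ⟨stepF L j x, stepF_lt L j x x.2⟩) (by
    intro x
    apply Fin.ext
    exact stepF_inv L h j x)

theorem stepP_sq (L : List ℕ) (h : L.IsChain (· ≠ ·)) (j : ℕ) : stepP L h j * stepP L h j = 1 := by
  ext x
  rw [Equiv.Perm.mul_apply]
  exact stepF_inv L h j x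

theorem stepP_run (L : List ℕ) (h : L.IsChain (· ≠ ·)) (A B : List ℕ) (hAB : L = A ++ B) :
    (((B.map (stepP L h)).prod (Fin.last L.length) : Fin (L.length + 1)) : ℕ) = A.length := by
  induction B generalizing A with
  | nil =>
    rw [List.map_nil, List.prod_nil, Equiv.Perm.one_apply, Fin.val_last, hAB, List.append_nil]
  | cons b B ih =>
    have h1 := ih (A ++ [b]) (by rw [hAB]; simp)
    rw [List.map_cons, List.prod_cons, Equiv.Perm.mul_apply]
    obtain ⟨y, hy⟩ : ∃ y, y = (B.map (stepP L h)).prod (Fin.last L.length) := ⟨_, rfl⟩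
    rw [← hy] at h1 ⊢
    show stepF L b y = A.length
    rw [h1]
    have h2 : L[A.length]? = some b := by rw [hAB]; simp
    have h3 : L[(A ++ [b]).length]? ≠ some b := by
      intro h3
      rw [List.length_append, List.length_singleton] at h3
      have := (List.isChain_iff_getElem.1 h) A.length (by
        obtain ⟨h4, _⟩ := List.getElem?_eq_some_iff.1 h3
        omega)
      obtain ⟨h4, h5⟩ := List.getElem?_eq_some_iff.1 h3
      obtain ⟨h6, h7⟩ := List.getElem?_eq_some_iff.1 h2
      rw [h5, h7] at this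
      exact this rfl
    unfold stepF
    rw [if_neg h3, List.length_append, List.length_singleton, Nat.add_sub_cancel, if_pos ⟨by omega, h2⟩]

theorem stepP_prod_ne (L : List ℕ) (h : L.IsChain (· ≠ ·)) (hne : L ≠ []) : (L.map (stepP L h)).prod ≠ 1 := by
  intro h1
  have h2 := stepP_run L h [] L rfl
  rw [h1, Equiv.Perm.one_apply, Fin.val_last, List.length_nil] at h2
  exact hne (List.length_eq_zero_iff.1 h2)

theorem perm_to_alt (k n : ℕ) (h : 2 * k ≤ n) : ∃ φ : Equiv.Perm (Fin k) →* ↥(alternatingGroup (Fin n)), Function.Injective φ := by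
  have hc : Fintype.card (Fin k ⊕ Fin k) ≤ Fintype.card (Fin n) := by
    rw [Fintype.card_sum, Fintype.card_fin, Fintype.card_fin]; omega
  obtain ⟨e⟩ := Function.Embedding.nonempty_of_card_le hc
  let ψ : Equiv.Perm (Fin k) →* Equiv.Perm (Fin n) :=
    (Equiv.Perm.viaEmbeddingHom e).comp ((Equiv.Perm.sumCongrHom (Fin k) (Fin k)).comp (MonoidHom.prod (MonoidHom.id _) (MonoidHom.id _)))
  have hψ : Function.Injective ψ := by
    refine (Equiv.Perm.viaEmbeddingHom_injective e).comp (Equiv.Perm.sumCongrHom_injective.comp ?_)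
    intro a b hab
    exact congrArg Prod.fst hab
  refine ⟨ψ.codRestrict _ ?_, fun a b hab => hψ (congrArg Subtype.val hab)⟩
  intro x
  rw [Equiv.Perm.mem_alternatingGroup]
  obtain ⟨y, hy⟩ : ∃ y : Equiv.Perm (Fin k ⊕ Fin k), y = Equiv.Perm.sumCongr x x := ⟨_, rfl⟩
  have h1 : ψ x = Equiv.Perm.viaEmbedding y e := by rw [hy]; rfl
  rw [h1]
  have h2 : Equiv.Perm.sign (Equiv.Perm.viaEmbedding y e) = Equiv.Perm.sign y := by
    unfold Equiv.Perm.viaEmbedding
    classical
    convert Equiv.Perm.sign_extendDomain y (Equiv.ofInjective e.1 e.2)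
  rw [h2, hy, Equiv.Perm.sign_sumCongr]
  exact Int.units_mul_self _

end perm

/-! ## SL2 -/

section sl

variable {R : Type*} [CommRing R]

def run (s : ℕ → R) : ℕ → List ℕ → R × R
  | _, [] => (1, 0)
  | j, (j' :: L) => ((s j' - s j) * (run s j' L).1 - (run s j' L).2, (run s j' L).1)

theorem run_map {S : Type*} [CommRing S] (φ : R →+* S) (b : ℕ → R) (j : ℕ) (L : List ℕ) :
    (run (fun n => φ (b n)) j L).1 = φ (run b j L).1 ∧ (run (fun n => φ (b n)) j L).2 = φ (run b j L).2 := by
  induction L generalizing j with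
  | nil => simp [run]
  | cons j' L ih =>
    obtain ⟨h0, h1⟩ := ih j'
    simp [run, h0, h1]

theorem deg_X {F : Type*} [Field F] {a b : ℕ} (h : a ≠ b) : ((X : F[X]) ^ (b + 1) - X ^ (a + 1)).degree = ((max a b + 1 : ℕ) : WithBot ℕ) := by
  rcases Nat.lt_or_ge a b with h1 | h1
  · rw [degree_sub_eq_left_of_degree_lt]
    · rw [degree_X_pow, max_eq_right h1.le]
    · rw [degree_X_pow, degree_X_pow]
      exact_mod_cast Nat.succ_lt_succ h1
  · have h2 : b < a := lt_of_le_of_ne h1 (Ne.symm h)
    rw [degree_sub_eq_right_of_degree_lt]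
    · rw [degree_X_pow, max_eq_left h2.le]
    · rw [degree_X_pow, degree_X_pow]
      exact_mod_cast Nat.succ_lt_succ h2

theorem inv_run {F : Type*} [Field F] {J : ℕ} (L : List ℕ) (j : ℕ) (hch : (j :: L).IsChain (· ≠ ·)) (hJ : ∀ i ∈ j :: L, i ≤ J) :
    ∃ D : ℕ, D ≤ L.length * (J + 1) ∧ (run (fun n => (X : F[X]) ^ (n + 1)) j L).1.degree = (D : WithBot ℕ) ∧
      (run (fun n => (X : F[X]) ^ (n + 1)) j L).2.degree < (D : WithBot ℕ) := by
  induction L generalizing j with
  | nil =>
    refine ⟨0, by simp, ?_, ?_⟩ <;> simp [run]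
  | cons j' L ih =>
    rw [List.isChain_cons_cons] at hch
    obtain ⟨D, hD, h1, h2⟩ := ih j' hch.2 (fun i hi => hJ i (List.mem_cons_of_mem _ hi))
    have hd := deg_X (F := F) hch.1
    have hm : max j j' ≤ J := max_le (hJ j (by simp)) (hJ j' (by simp))
    have hlt : D < max j j' + 1 + D := by omega
    refine ⟨max j j' + 1 + D, ?_, ?_, ?_⟩
    · rw [List.length_cons]
      calc max j j' + 1 + D ≤ (J + 1) + L.length * (J + 1) := Nat.add_le_add (by omega) hD
        _ = (L.length + 1) * (J + 1) := by ring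
    · show (((X : F[X]) ^ (j' + 1) - X ^ (j + 1)) * (run (fun n => (X : F[X]) ^ (n + 1)) j' L).1 - (run (fun n => (X : F[X]) ^ (n + 1)) j' L).2).degree = _
      have e1 : (((X : F[X]) ^ (j' + 1) - X ^ (j + 1)) * (run (fun n => (X : F[X]) ^ (n + 1)) j' L).1).degree = ((max j j' + 1 + D : ℕ) : WithBot ℕ) := by
        rw [degree_mul, hd, h1]
        push_cast
        rfl
      rw [degree_sub_eq_left_of_degree_lt, e1]
      rw [e1]
      exact h2.trans (by exact_mod_cast hlt)
    · show (run (fun n => (X : F[X]) ^ (n + 1)) j' L).1.degree < _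
      rw [h1]
      exact_mod_cast hlt

/-- trace-zero matrices of square `-1` -/
def zm (s : R) : Matrix.SpecialLinearGroup (Fin 2) R := ⟨!![s, -(s ^ 2 + 1); 1, -s], by rw [Matrix.det_fin_two_of]; ring⟩

theorem zm_sq (s : R) : ((zm s * zm s : Matrix.SpecialLinearGroup (Fin 2) R) : Matrix (Fin 2) (Fin 2) R) = -1 := by
  rw [Matrix.SpecialLinearGroup.coe_mul]
  show !![s, -(s ^ 2 + 1); 1, -s] * !![s, -(s ^ 2 + 1); 1, -s] = -1
  rw [Matrix.mul_fin_two]
  ext i k
  fin_cases i <;> fin_cases k <;> simp <;> ring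

theorem prod_col (s : ℕ → R) (j : ℕ) (L : List ℕ) :
    ((((j :: L).map (fun n => zm (s n))).prod : Matrix.SpecialLinearGroup (Fin 2) R) : Matrix (Fin 2) (Fin 2) R) 1 0 = (run s j L).1 ∧
    ((((j :: L).map (fun n => zm (s n))).prod : Matrix.SpecialLinearGroup (Fin 2) R) : Matrix (Fin 2) (Fin 2) R) 0 0 = s j * (run s j L).1 - (run s j L).2 := by
  induction L generalizing j with
  | nil =>
    rw [List.map_cons, List.map_nil, List.prod_cons, List.prod_nil, mul_one]
    simp [zm, run]
  | cons j' L ih =>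
    obtain ⟨h1, h0⟩ := ih j'
    rw [List.map_cons, List.prod_cons, Matrix.SpecialLinearGroup.coe_mul, Matrix.mul_apply, Fin.sum_univ_two, Matrix.mul_apply, Fin.sum_univ_two, h1, h0]
    simp only [zm, run]
    constructor
    · simp
      ring
    · simp
      ring

end sl

theorem exists_t (w : FreeGroup ℕ) (hw : w ≠ 1) : ∃ N : ℕ, ∀ (F : Type*) [Field F] [Fintype F], N ≤ Fintype.card F →
    ∃ t : F, ((((seq w.toWord).map (fun n => zm (t ^ (n + 1)))).prod : Matrix.SpecialLinearGroup (Fin 2) F) : Matrix (Fin 2) (Fin 2) F) 1 0 ≠ 0 := by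
  obtain ⟨j, j', L, hseq⟩ := word_ne hw
  have hch := word_chain w
  rw [hseq] at hch ⊢
  refine ⟨(j' :: L).length * ((j :: j' :: L).sum + 1) + 1, ?_⟩
  intro F _ _ hN
  obtain ⟨D, hD, h1, -⟩ := inv_run (F := F) (J := (j :: j' :: L).sum) (j' :: L) j hch (fun i hi => List.le_sum_of_mem hi)
  obtain ⟨P, hP⟩ : ∃ P, P = (run (fun n => (X : F[X]) ^ (n + 1)) j (j' :: L)).1 := ⟨_, rfl⟩
  rw [← hP] at h1
  have hP0 : P ≠ 0 := by
    intro h
    rw [h, degree_zero] at h1
    exact WithBot.bot_ne_coe h1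
  have hlt : P.natDegree < Fintype.card F := by
    rw [natDegree_eq_of_degree_eq_some h1]
    omega
  obtain ⟨t, ht⟩ := Polynomial.exists_eval_ne_zero_of_natDegree_lt_card P hP0 (by rw [Cardinal.mk_fintype]; exact_mod_cast hlt)
  refine ⟨t, ?_⟩
  rw [(prod_col (fun n => t ^ (n + 1)) j (j' :: L)).1]
  have h4 : (run (fun n => t ^ (n + 1)) j (j' :: L)).1 = P.eval t := by
    have := (run_map (Polynomial.evalRingHom t) (fun n => (X : F[X]) ^ (n + 1)) j (j' :: L)).1
    rw [hP, ← Polynomial.coe_evalRingHom, ← this]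
    congr 2
    funext n
    simp
  rw [h4]
  exact ht

end Cfsg.Agent.H8.Law
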