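import Mathlib
import Cfsg.Prelude.Def_Classical
import Cfsg.Agent.S2352
import Cfsg.Agent.S2353
import Cfsg.Agent.S0281
import Cfsg.Agent.H8.SLn

set_option autoImplicit false

namespace Cfsg.Agent.H8.Law

open Matrix

def CLaw (w : FreeGroup ℕ) (G : Type*) [Group G] : Prop := ∀ f : ℕ → G, FreeGroup.lift f w ∈ Subgroup.center G

theorem claw_of_law {w : FreeGroup ℕ} {G : Type*} [Group G] (h : ∀ f : ℕ → G ⧸ Subgroup.center G, FreeGroup.lift f w = 1) : CLaw w G := by
  intro f
  have h1 := h (fun i => QuotientGroup.mk (f i))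
  have h2 : (QuotientGroup.mk' (Subgroup.center G)).comp (FreeGroup.lift f) = FreeGroup.lift (fun i => (QuotientGroup.mk (f i) : G ⧸ Subgroup.center G)) := by
    ext i
    simp
  rw [← h2] at h1
  exact (QuotientGroup.eq_one_iff _).1 h1

theorem law_of_claw {w : FreeGroup ℕ} {G : Type*} [Group G] (h : CLaw w G) (f : ℕ → G ⧸ Subgroup.center G) : FreeGroup.lift f w = 1 := by
  choose g hg using fun i => QuotientGroup.mk'_surjective (Subgroup.center G) (f i)
  have h1 := h g
  have h2 : (QuotientGroup.mk' (Subgroup.center G)).comp (FreeGroup.lift g) = FreeGroup.lift f := by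
    ext i
    simp only [MonoidHom.comp_apply, FreeGroup.lift_apply_of]
    exact hg i
  rw [← h2]
  exact (QuotientGroup.eq_one_iff _).2 h1

theorem claw_inj {w : FreeGroup ℕ} {G H : Type*} [Group G] [Group H] (φ : H →* G) (hφ : Function.Injective φ) (h : CLaw w G) : CLaw w H := by
  intro f
  have h1 := h (fun i => φ (f i))
  have h2 : φ.comp (FreeGroup.lift f) = FreeGroup.lift (fun i => φ (f i)) := by
    ext i
    simp
  rw [← h2, MonoidHom.comp_apply, Subgroup.mem_center_iff] at h1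
  rw [Subgroup.mem_center_iff]
  intro g
  apply hφ
  rw [map_mul, map_mul]
  exact h1 (φ g)

theorem law_iso {w : FreeGroup ℕ} {G H : Type*} [Group G] [Group H] (e : G ≃* H) (h : ∀ f : ℕ → G, FreeGroup.lift f w = 1) (f : ℕ → H) :
    FreeGroup.lift f w = 1 := by
  have h1 := h (fun i => e.symm (f i))
  have h2 : (e.symm.toMonoidHom).comp (FreeGroup.lift f) = FreeGroup.lift (fun i => e.symm (f i)) := by
    ext i
    simp
  rw [← h2] at h1
  exact e.symm.injective (h1.trans (map_one e.symm).symm)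

theorem alt_bound (w : FreeGroup ℕ) (hw : w ≠ 1) : ∃ A : ℕ, 1 ≤ A ∧ ∀ n, CLaw w (alternatingGroup (Fin n)) → n < A := by
  obtain ⟨N, hN⟩ := Cfsg.Agent.S2352.result w hw
  refine ⟨max N 4, by omega, fun n h => ?_⟩
  by_contra hcon
  push Not at hcon
  obtain ⟨f, hf⟩ := hN n (by omega)
  apply hf
  have h1 := h f
  have h2 : Subgroup.center (alternatingGroup (Fin n)) = ⊥ := alternatingGroup.center_eq_bot (by simp; omega)
  rw [h2] at h1
  exact h1

theorem sl_bound (w : FreeGroup ℕ) (hw : w ≠ 1) : ∃ B : ℕ, 1 ≤ B ∧ ∀ (F : Type) [Field F] [Fintype F], CLaw w (SpecialLinearGroup (Fin 2) F) → Fintype.card F < B := by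
  obtain ⟨N, hN⟩ := Cfsg.Agent.S2353.result.{0} w hw
  refine ⟨max N 1, by omega, fun F _ _ h => ?_⟩
  by_contra hcon
  push Not at hcon
  obtain ⟨f, hf⟩ := hN F (by omega)
  exact hf (law_of_claw h f)

/-! ## permutation matrices -/

section pm

variable {F : Type*} [Field F] {n : ℕ}

def pm (σ : Equiv.Perm (Fin n)) : Matrix (Fin n) (Fin n) F := (σ⁻¹).permMatrix F

theorem pm_mul (σ τ : Equiv.Perm (Fin n)) : (pm (σ * τ) : Matrix (Fin n) (Fin n) F) = pm σ * pm τ := by
  unfold pm
  rw [_root_.mul_inv_rev, permMatrix_mul]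

theorem pm_mulVec (σ : Equiv.Perm (Fin n)) (v : Fin n → F) : (pm σ : Matrix (Fin n) (Fin n) F) *ᵥ v = v ∘ ⇑(σ⁻¹) := permMatrix_mulVec _

theorem pm_inj {σ τ : Equiv.Perm (Fin n)} (h : (pm σ : Matrix (Fin n) (Fin n) F) = pm τ) : σ = τ := by
  have h1 : ∀ v : Fin n → F, v ∘ ⇑(σ⁻¹) = v ∘ ⇑(τ⁻¹) := by
    intro v
    rw [← pm_mulVec, ← pm_mulVec, h]
  apply inv_injective
  ext i
  have h2 := congrFun (h1 (Pi.single (σ⁻¹ i) 1)) i
  simp only [Function.comp_apply, Pi.single_eq_same] at h2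
  by_contra hcon
  rw [Pi.single_eq_of_ne (fun h3 => hcon (congrArg Fin.val h3.symm))] at h2
  exact one_ne_zero h2

theorem pm_det (σ : alternatingGroup (Fin n)) : (pm (σ : Equiv.Perm (Fin n)) : Matrix (Fin n) (Fin n) F).det = 1 := by
  unfold pm
  rw [det_permutation, Equiv.Perm.sign_inv, Equiv.Perm.mem_alternatingGroup.1 σ.2]
  simp

def altSL (F : Type*) [Field F] (n : ℕ) : alternatingGroup (Fin n) →* SpecialLinearGroup (Fin n) F where
  toFun σ := ⟨pm (σ : Equiv.Perm (Fin n)), pm_det σ⟩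
  map_one' := by
    apply Subtype.ext
    show ((1 : Equiv.Perm (Fin n))⁻¹).permMatrix F = 1
    rw [inv_one, permMatrix_one]
  map_mul' σ τ := by
    apply Subtype.ext
    exact pm_mul _ _

theorem altSL_inj : Function.Injective (altSL F n) := by
  intro σ τ h
  apply Subtype.ext
  exact pm_inj (congrArg Subtype.val h)

end pm

/-! ## blocks -/

section bl

variable {F : Type*} [Field F] {k : ℕ}

def blk (A : Matrix (Fin 2) (Fin 2) F) (k : ℕ) : Matrix (Fin (2 + k)) (Fin (2 + k)) F :=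
  (fromBlocks A 0 0 (1 : Matrix (Fin k) (Fin k) F)).submatrix finSumFinEquiv.symm finSumFinEquiv.symm

theorem blk_mul (A B : Matrix (Fin 2) (Fin 2) F) : blk (A * B) k = blk A k * blk B k := by
  unfold blk
  rw [submatrix_mul_equiv, fromBlocks_multiply]
  simp

theorem blk_one : blk (1 : Matrix (Fin 2) (Fin 2) F) k = 1 := by
  unfold blk
  rw [fromBlocks_one, submatrix_one_equiv]

theorem blk_inj {A B : Matrix (Fin 2) (Fin 2) F} (h : blk A k = blk B k) : A = B := by
  ext i j
  have h1 := congrFun (congrFun h (finSumFinEquiv (Sum.inl i))) (finSumFinEquiv (Sum.inl j))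
  simpa [blk] using h1

theorem blk_det (A : Matrix (Fin 2) (Fin 2) F) : (blk A k).det = A.det := by
  unfold blk
  rw [det_submatrix_equiv_self, det_fromBlocks_zero₂₁, det_one, mul_one]

def slSL (F : Type*) [Field F] (k : ℕ) : SpecialLinearGroup (Fin 2) F →* SpecialLinearGroup (Fin (2 + k)) F where
  toFun A := ⟨blk A.1 k, by rw [blk_det]; exact A.2⟩
  map_one' := by
    apply Subtype.ext
    exact blk_one
  map_mul' A B := by
    apply Subtype.ext
    exact blk_mul _ _

theorem slSL_inj : Function.Injective (slSL F k) := by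
  intro A B h
  apply Subtype.ext
  exact blk_inj (congrArg Subtype.val h)

end bl

theorem sl_bounds {w : FreeGroup ℕ} {A B : ℕ} (hA : ∀ n, CLaw w (alternatingGroup (Fin n)) → n < A)
    (hB : ∀ (F : Type) [Field F] [Fintype F], CLaw w (SpecialLinearGroup (Fin 2) F) → Fintype.card F < B)
    {F : Type} [Field F] [Fintype F] {n : ℕ} (hn : 2 ≤ n) (h : CLaw w (SpecialLinearGroup (Fin n) F)) : n < A ∧ Fintype.card F < B := by
  refine ⟨hA n (claw_inj (altSL F n) altSL_inj h), hB F ?_⟩
  obtain ⟨k, rfl⟩ := Nat.exists_eq_add_of_le hn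
  exact claw_inj (slSL F k) slSL_inj h

end Cfsg.Agent.H8.Law
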