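import Mathlib
import Cfsg.Prelude.Def_Classical
import Cfsg.Agent.H8.LAW2

set_option autoImplicit false

namespace Cfsg.Agent.H8.Law

open Matrix

/-! ## unitary groups -/

section su

variable {F : Type*} [Field F]

theorem mem_SU {n q : ℕ} (M : SpecialLinearGroup (Fin n) F) : M ∈ Cfsg.SU n F q ↔ ∀ u v, hermForm n F q (M.1 *ᵥ u) (M.1 *ᵥ v) = hermForm n F q u v := Iff.rfl

def altSU (F : Type*) [Field F] (n q : ℕ) : alternatingGroup (Fin n) →* Cfsg.SU n F q :=
  (altSL F n).codRestrict _ (by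
    intro σ
    rw [mem_SU]
    intro u v
    show hermForm n F q (pm (σ : Equiv.Perm (Fin n)) *ᵥ u) (pm (σ : Equiv.Perm (Fin n)) *ᵥ v) = _
    rw [pm_mulVec, pm_mulVec]
    unfold hermForm
    exact Equiv.sum_comp ((σ : Equiv.Perm (Fin n))⁻¹) (fun i => u i * (v i) ^ q))

theorem altSU_inj {n q : ℕ} : Function.Injective (altSU F n q) := by
  intro σ τ h
  exact altSL_inj (congrArg Subtype.val h)

theorem blk_mulVec_l {k : ℕ} (A : Matrix (Fin 2) (Fin 2) F) (u : Fin (2 + k) → F) (i : Fin 2) :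
    (blk A k *ᵥ u) (Fin.castAdd k i) = (A *ᵥ (fun j => u (Fin.castAdd k j))) i := by
  simp only [mulVec, dotProduct]
  rw [Fin.sum_univ_add]
  simp [blk]

theorem blk_mulVec_r {k : ℕ} (A : Matrix (Fin 2) (Fin 2) F) (u : Fin (2 + k) → F) (i : Fin k) :
    (blk A k *ᵥ u) (Fin.natAdd 2 i) = u (Fin.natAdd 2 i) := by
  simp only [mulVec, dotProduct]
  rw [Fin.sum_univ_add]
  simp [blk, Matrix.one_apply]

def suSU (F : Type*) [Field F] (k q : ℕ) : Cfsg.SU 2 F q →* Cfsg.SU (2 + k) F q :=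
  ((slSL F k).comp (Cfsg.SU 2 F q).subtype).codRestrict _ (by
    intro A
    rw [mem_SU]
    intro u v
    show hermForm (2 + k) F q (blk A.1.1 k *ᵥ u) (blk A.1.1 k *ᵥ v) = _
    have hA := (mem_SU A.1).1 A.2 (fun j => u (Fin.castAdd k j)) (fun j => v (Fin.castAdd k j))
    unfold hermForm at hA ⊢
    rw [Fin.sum_univ_add, Fin.sum_univ_add]
    simp only [blk_mulVec_l, blk_mulVec_r]
    rw [hA])

theorem suSU_inj {k q : ℕ} : Function.Injective (suSU F k q) := by
  intro A B h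
  apply Subtype.ext
  exact slSL_inj (congrArg Subtype.val h)

end su

theorem su_bounds {w : FreeGroup ℕ} {A B : ℕ} (hA : ∀ n, CLaw w (alternatingGroup (Fin n)) → n < A)
    (hB : ∀ (F : Type) [Field F] [Fintype F], CLaw w (SpecialLinearGroup (Fin 2) F) → Fintype.card F < B)
    {F : Type} [Field F] [Fintype F] {n q : ℕ} (hF : Fintype.card F = q ^ 2) (hn : 2 ≤ n) (h : CLaw w (Cfsg.SU n F q)) : n < A ∧ q < B := by
  refine ⟨hA n (claw_inj (altSU F n q) altSU_inj h), ?_⟩
  obtain ⟨k, rfl⟩ := Nat.exists_eq_add_of_le hn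
  have h2 := claw_inj (suSU F k q) suSU_inj h
  -- the field of order q
  obtain ⟨p, hp⟩ := CharP.exists F
  obtain ⟨a, hpp, hpa⟩ := FiniteField.card F p
  haveI : Fact p.Prime := ⟨hpp⟩
  obtain ⟨b, -, hb⟩ : ∃ b ≤ (a : ℕ), q = p ^ b := (Nat.dvd_prime_pow hpp).1 (by rw [← hpa, hF]; exact Dvd.intro_left (q ^ (2 - 1)) (by ring))
  have hb0 : b ≠ 0 := by
    rintro rfl
    rw [pow_zero] at hb
    rw [hb, one_pow] at hF
    have := Fintype.one_lt_card (α := F)
    omega
  haveI : Fintype (GaloisField p b) := Fintype.ofFinite _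
  have hK : Fintype.card (GaloisField p b) = q := by
    rw [← Nat.card_eq_fintype_card, GaloisField.card p b hb0, hb]
  obtain ⟨e⟩ := Cfsg.Agent.S0281.result hF hK
  have h3 := claw_inj e.symm.toMonoidHom e.symm.injective h2
  have h4 := hB _ h3
  rw [hK] at h4
  exact h4

/-! ## Levi subgroups -/

section levi

variable {F : Type*} [Field F] {m : ℕ}

abbrev SLm (m : ℕ) (F : Type*) [Field F] := SpecialLinearGroup (Fin m) F

def lv (g : SLm m F) : Matrix (Fin m ⊕ Fin m) (Fin m ⊕ Fin m) F := fromBlocks g.1 0 0 (g⁻¹).1ᵀ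

theorem lv_mul (g h : SLm m F) : lv (g * h) = lv g * lv h := by
  unfold lv
  rw [fromBlocks_multiply, _root_.mul_inv_rev]
  simp only [Matrix.mul_zero, Matrix.zero_mul, add_zero, zero_add]
  congr 1
  rw [← transpose_mul]
  rfl

theorem lv_one : lv (1 : SLm m F) = 1 := by
  unfold lv
  rw [inv_one]
  show fromBlocks 1 0 0 (1 : Matrix (Fin m) (Fin m) F)ᵀ = 1
  rw [transpose_one, fromBlocks_one]

theorem lv_inj {g h : SLm m F} (e : lv g = lv h) : g = h := Subtype.ext (fromBlocks_inj.1 e).1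

theorem mul_inv_val (g : SLm m F) : g.1 * (g⁻¹).1 = 1 := by
  have h : g * g⁻¹ = 1 := mul_inv_cancel g
  exact congrArg Subtype.val h

theorem inv_mul_val (g : SLm m F) : (g⁻¹).1 * g.1 = 1 := by
  have h : g⁻¹ * g = 1 := inv_mul_cancel g
  exact congrArg Subtype.val h

theorem lv_sp (g : SLm m F) : lv g ∈ symplecticGroup (Fin m) F := by
  rw [SymplecticGroup.mem_iff]
  unfold lv Matrix.J
  rw [fromBlocks_transpose, fromBlocks_multiply, fromBlocks_multiply]
  simp only [Matrix.mul_zero, Matrix.zero_mul, add_zero, zero_add, transpose_zero, transpose_transpose, Matrix.mul_neg, Matrix.mul_one, Matrix.neg_mul, neg_zero]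
  rw [mul_inv_val, ← transpose_mul, mul_inv_val, transpose_one]

def lvSp (m : ℕ) (F : Type*) [Field F] : SLm m F →* symplecticGroup (Fin m) F where
  toFun g := ⟨lv g, lv_sp g⟩
  map_one' := Subtype.ext lv_one
  map_mul' g h := Subtype.ext (lv_mul g h)

theorem lvSp_inj : Function.Injective (lvSp m F) := fun _ _ h => lv_inj (congrArg Subtype.val h)

theorem lv_q (g : SLm m F) (v : Fin m ⊕ Fin m → F) : ∑ i : Fin m, (lv g *ᵥ v) (.inl i) * (lv g *ᵥ v) (.inr i) = ∑ i : Fin m, v (.inl i) * v (.inr i) := by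
  unfold lv
  rw [fromBlocks_mulVec]
  simp only [Sum.elim_inl, Sum.elim_inr, zero_mulVec, add_zero, zero_add]
  show (g.1 *ᵥ (v ∘ Sum.inl)) ⬝ᵥ ((g⁻¹).1ᵀ *ᵥ (v ∘ Sum.inr)) = (v ∘ Sum.inl) ⬝ᵥ (v ∘ Sum.inr)
  rw [mulVec_transpose, dotProduct_comm, ← dotProduct_mulVec, mulVec_mulVec, inv_mul_val, one_mulVec, dotProduct_comm]

/-- a multiplicative map into matrices gives a map into the general linear group -/
def toGL {G : Type*} [Group G] {ι : Type} [Fintype ι] [DecidableEq ι] (f : G →* Matrix ι ι F) : G →* GeneralLinearGroup ι F := f.toHomUnits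

theorem perfect_to_comm {G K : Type*} [Group G] [Group K] (hG : commutator G = ⊤) (φ : G →* K) (hφ : Function.Injective φ) :
    ∃ ψ : G →* commutator K, Function.Injective ψ := by
  refine ⟨φ.codRestrict _ ?_, fun a b h => hφ (congrArg Subtype.val h)⟩
  intro g
  have h1 : g ∈ commutator G := by rw [hG]; trivial
  have h2 : φ g ∈ (commutator G).map φ := Subgroup.mem_map_of_mem φ h1
  rw [commutator_def, Subgroup.map_commutator] at h2
  exact Subgroup.commutator_mono le_top le_top h2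

theorem to_omega {ι : Type} [Fintype ι] [DecidableEq ι] (Q : (ι → F) → F) (hm : 3 ≤ m) (f : SLm m F →* Matrix ι ι F) (hf : Function.Injective f)
    (hQ : ∀ g v, Q (f g *ᵥ v) = Q v) : ∃ ψ : SLm m F →* Cfsg.Omega F Q, Function.Injective ψ := by
  refine perfect_to_comm (Cfsg.Agent.H8.SLn.commutator_eq_top (by simpa using hm)) (f.toHomUnits.codRestrict (isometryGroup F Q) ?_) ?_
  · intro g u _
    exact hQ g u
  · intro a b h
    exact hf (congrArg (fun x => ((x : isometryGroup F Q).1 : Matrix ι ι F)) h)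

def lvM (m : ℕ) (F : Type*) [Field F] : SLm m F →* Matrix (Fin m ⊕ Fin m) (Fin m ⊕ Fin m) F where
  toFun g := lv g
  map_one' := lv_one
  map_mul' g h := lv_mul g h

def blR (ι κ : Type) [Fintype ι] [DecidableEq ι] [Fintype κ] [DecidableEq κ] (F : Type*) [Field F] : Matrix ι ι F →* Matrix (ι ⊕ κ) (ι ⊕ κ) F where
  toFun A := fromBlocks A 0 0 1
  map_one' := fromBlocks_one
  map_mul' A B := by rw [fromBlocks_multiply]; simp

def blL (ι κ : Type) [Fintype ι] [DecidableEq ι] [Fintype κ] [DecidableEq κ] (F : Type*) [Field F] : Matrix ι ι F →* Matrix (κ ⊕ ι) (κ ⊕ ι) F where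
  toFun A := fromBlocks 1 0 0 A
  map_one' := fromBlocks_one
  map_mul' A B := by rw [fromBlocks_multiply]; simp

theorem blR_inj {ι κ : Type} [Fintype ι] [DecidableEq ι] [Fintype κ] [DecidableEq κ] : Function.Injective (blR ι κ F) := fun _ _ h => (fromBlocks_inj.1 h).1

theorem blL_inj {ι κ : Type} [Fintype ι] [DecidableEq ι] [Fintype κ] [DecidableEq κ] : Function.Injective (blL ι κ F) := fun _ _ h => (fromBlocks_inj.1 h).2.2.2

theorem lvM_inj : Function.Injective (lvM m F) := fun _ _ h => lv_inj h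

theorem lv_plus (hm : 3 ≤ m) : ∃ ψ : SLm m F →* Cfsg.Omega F (quadFormPlus m F), Function.Injective ψ :=
  to_omega _ hm (lvM m F) lvM_inj (fun g v => lv_q g v)

theorem lv_odd (hm : 3 ≤ m) : ∃ ψ : SLm m F →* Cfsg.Omega F (quadFormOdd m F), Function.Injective ψ := by
  refine to_omega _ hm ((blL _ Unit F).comp (lvM m F)) (blL_inj.comp lvM_inj) (fun g v => ?_)
  show quadFormOdd m F (fromBlocks 1 0 0 (lv g) *ᵥ v) = _
  unfold quadFormOdd
  rw [fromBlocks_mulVec]
  simp only [Sum.elim_inl, Sum.elim_inr, zero_mulVec, add_zero, zero_add, one_mulVec]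
  rw [lv_q]
  rfl

theorem lv_minus (a b : F) (hm : 3 ≤ m) : ∃ ψ : SLm m F →* Cfsg.Omega F (quadFormMinus m F a b), Function.Injective ψ := by
  refine to_omega _ hm ((blR _ (Fin 2) F).comp (lvM m F)) (blR_inj.comp lvM_inj) (fun g v => ?_)
  show quadFormMinus m F a b (fromBlocks (lv g) 0 0 1 *ᵥ v) = _
  unfold quadFormMinus
  rw [fromBlocks_mulVec]
  simp only [Sum.elim_inl, Sum.elim_inr, zero_mulVec, add_zero, zero_add, one_mulVec]
  rw [lv_q]
  rfl

end levi

/-! ## cardinalities -/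

theorem card_le {G : Type*} [Group G] (N : Subgroup G) [N.Normal] {ι F : Type} [Fintype ι] [DecidableEq ι] [Field F] [Fintype F] (f : G → Matrix ι ι F)
    (hf : Function.Injective f) : Nat.card (G ⧸ N) ≤ Fintype.card F ^ (Fintype.card ι * Fintype.card ι) := by
  haveI : Finite G := Finite.of_injective f hf
  calc Nat.card (G ⧸ N) ≤ Nat.card G := Nat.card_le_card_of_surjective _ (QuotientGroup.mk_surjective)
    _ ≤ Nat.card (Matrix ι ι F) := Nat.card_le_card_of_injective f hf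
    _ = Fintype.card F ^ (Fintype.card ι * Fintype.card ι) := by
      rw [Nat.card_eq_fintype_card, show Fintype.card (Matrix ι ι F) = Fintype.card (ι → ι → F) from rfl, Fintype.card_fun, Fintype.card_fun, ← pow_mul]

theorem bnd {x d A B : ℕ} (hx : x ≤ B * B) (hd : d ≤ 2 * A + 2) : x ^ (d * d) ≤ (B * B + 1) ^ ((2 * A + 2) * (2 * A + 2)) :=
  (Nat.pow_le_pow_left (by omega) _).trans (Nat.pow_le_pow_right (by omega) (Nat.mul_le_mul hd hd))

end Cfsg.Agent.H8.Law
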