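import Mathlib

set_option autoImplicit false

namespace Cfsg.Agent.H8

open Polynomial

variable {F : Type*} [Field F] [Finite F]

noncomputable def monicEquiv (n : ℕ) : {g : F[X] // g.Monic ∧ g.natDegree = n} ≃ (Fin n → F) where
  toFun g i := g.1.coeff i
  invFun c := ⟨X ^ n + ∑ i : Fin n, C (c i) * X ^ (i : ℕ), by
    have hlt : (∑ i : Fin n, C (c i) * X ^ (i : ℕ) : F[X]).degree < n := by
      rw [Polynomial.degree_lt_iff_coeff_zero]
      intro m hm
      simp only [finset_sum_coeff, coeff_C_mul, coeff_X_pow]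
      apply Finset.sum_eq_zero
      intro i _
      rw [if_neg (by have := i.2; omega), mul_zero]
    refine ⟨monic_X_pow_add hlt, ?_⟩
    rw [natDegree_eq_of_degree_eq_some]
    rw [degree_add_eq_left_of_degree_lt, degree_X_pow]
    rw [degree_X_pow]; exact hlt⟩
  left_inv g := by
    apply Subtype.ext
    ext m
    simp only [coeff_add, coeff_X_pow, finset_sum_coeff, coeff_C_mul]
    rcases lt_trichotomy m n with h | h | h
    · rw [if_neg (by omega), zero_add, Finset.sum_eq_single ⟨m, h⟩]
      · simp
      · intro j _ hj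
        rw [if_neg, mul_zero]
        intro h1
        exact hj (Fin.ext h1.symm)
      · simp
    · subst h
      rw [if_pos rfl, Finset.sum_eq_zero, add_zero]
      · have h1 := g.2.1
        rw [Polynomial.Monic, Polynomial.leadingCoeff, g.2.2] at h1
        exact h1.symm
      · intro j _
        rw [if_neg (by have := j.2; omega), mul_zero]
    · rw [if_neg (by omega), zero_add, Finset.sum_eq_zero, Polynomial.coeff_eq_zero_of_natDegree_lt]
      · rw [g.2.2]; exact h
      · intro j _
        rw [if_neg (by have := j.2; omega), mul_zero]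
  right_inv c := by
    funext i
    simp only [coeff_add, coeff_X_pow, finset_sum_coeff, coeff_C_mul]
    rw [if_neg (by have := i.2; omega), zero_add, Finset.sum_eq_single i]
    · simp
    · intro j _ hj
      rw [if_neg, mul_zero]
      intro h1
      exact hj (Fin.ext h1.symm)
    · simp

instance (n : ℕ) : Finite {g : F[X] // g.Monic ∧ g.natDegree = n} := Finite.of_equiv _ (monicEquiv n).symm

theorem card_monic (n : ℕ) : Nat.card {g : F[X] // g.Monic ∧ g.natDegree = n} = Nat.card F ^ n := by
  rw [Nat.card_congr (monicEquiv n), Nat.card_fun]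
  simp

theorem card_monic_coeff (m : ℕ) (P : F → Prop) :
    Nat.card {g : F[X] // (g.Monic ∧ g.natDegree = m + 1) ∧ P (g.coeff 0)} = Nat.card {a : F // P a} * Nat.card F ^ m := by
  have e1 : {g : F[X] // (g.Monic ∧ g.natDegree = m + 1) ∧ P (g.coeff 0)} ≃
      {g : {g : F[X] // g.Monic ∧ g.natDegree = m + 1} // P (g.1.coeff 0)} :=
    (Equiv.subtypeSubtypeEquivSubtypeInter (fun g : F[X] => g.Monic ∧ g.natDegree = m + 1) (fun g => P (g.coeff 0))).symm
  have e2 : {g : {g : F[X] // g.Monic ∧ g.natDegree = m + 1} // P (g.1.coeff 0)} ≃ {c : Fin (m + 1) → F // P (c 0)} :=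
    (monicEquiv (m + 1)).subtypeEquiv (fun g => by simp [monicEquiv])
  have e3 : {c : Fin (m + 1) → F // P (c 0)} ≃ {c : F × (Fin m → F) // P c.1} :=
    (Fin.consEquiv (fun _ : Fin (m + 1) => F)).symm.subtypeEquiv (fun g => by simp [Fin.consEquiv])
  have e4 : {c : F × (Fin m → F) // P c.1} ≃ {a : F // P a} × (Fin m → F) :=
    { toFun := fun c => (⟨c.1.1, c.2⟩, c.1.2)
      invFun := fun c => ⟨(c.1.1, c.2), c.1.2⟩
      left_inv := fun c => rfl
      right_inv := fun c => rfl }
  rw [Nat.card_congr (e1.trans (e2.trans (e3.trans e4))), Nat.card_prod, Nat.card_fun]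
  simp

theorem card_ne_zero : Nat.card {a : F // a ≠ 0} = Nat.card F - 1 := by
  classical
  haveI := Fintype.ofFinite F
  rw [Nat.card_eq_fintype_card, Nat.card_eq_fintype_card]
  have := Fintype.card_subtype_compl (fun a : F => a = 0)
  rw [Fintype.card_subtype_eq] at this
  exact this

end Cfsg.Agent.H8
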