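import Mathlib
import Cfsg.Agent.H8.SzT5
import Cfsg.Agent.H8.SzR

set_option autoImplicit false

namespace Cfsg.Agent.H8.Suz

open Matrix Cfsg.Agent.H8.TI
open scoped Pointwise

variable {F : Type*} [Field F] [Fintype F] (m : ℕ) [H : Hyp F m]

/-! ### the subgroup `{s + s^σ}` -/

/-- the image of `s ↦ s + s^σ` -/
def II (z : F) : Prop := ∃ s : F, s + th m s = z

include H in
theorem II_add {x y : F} (hx : II m x) (hy : II m y) : II m (x + y) := by
  obtain ⟨s, rfl⟩ := hx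
  obtain ⟨t, rfl⟩ := hy
  exact ⟨s + t, by rw [th_add]; ring⟩

include H in
theorem II_one : ¬ II m (1 : F) := by
  rintro ⟨s, hs⟩
  apply no_sol m s
  linear_combination hs - s * (two0 m : (2 : F) = 0)

include H in
theorem II_th (x : F) : II m (x + th m x) := ⟨x, rfl⟩

include H in
theorem II_not {x : F} : ¬ II m x ↔ II m (x + 1) := by
  constructor
  · intro h
    rcases img_half m x with h1 | h1
    · exact absurd h1 h
    · exact h1
  · intro h h1
    apply II_one (F := F) m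
    have := II_add m h h1
    have e : x + 1 + x = 1 := by linear_combination x * (two0 m : (2 : F) = 0)
    rwa [e] at this

include H in
/-- congruence modulo the subgroup -/
theorem II_congr {x y : F} (h : II m (x + y)) : II m x ↔ II m y := by
  constructor
  · intro hx
    have := II_add m hx h
    have e : x + (x + y) = y := by linear_combination x * (two0 m : (2 : F) = 0)
    rwa [e] at this
  · intro hx
    have := II_add m hx h
    have e : y + (x + y) = x := by linear_combination y * (two0 m : (2 : F) = 0)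
    rwa [e] at this

include H in
theorem II_zero : II m (0 : F) := ⟨0, by rw [th_zero, add_zero]⟩

include H in
theorem II_sub {x y : F} (h : II m (x + y)) (hx : II m x) : II m y := (II_congr m h).1 hx

include H in
theorem II_th_iff (x : F) : II m x ↔ II m (th m x) := II_congr m (II_th m x)

include H in
theorem II_sq_iff (x : F) : II m x ↔ II m (x ^ 2) := by
  rw [II_th_iff, II_th_iff, th_th]

include H in
theorem II_rh_iff (x : F) : II m x ↔ II m (rh m x) := by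
  rw [II_th_iff m (rh m x), th_rh']

include H in
/-- non-degeneracy -/
theorem II_all {x : F} (h : ∀ k : F, II m (x * k)) : x = 0 := by
  by_contra hx
  apply II_one (F := F) m
  have := h x⁻¹
  rwa [mul_inv_cancel₀ hx] at this

include H in
theorem II_mul {ρ : F} (h : ∀ i : F, II m i → II m (ρ * i)) : ρ = 0 ∨ ρ = 1 := by
  apply mul_I m
  intro s
  obtain ⟨t, ht⟩ := h _ (II_th m s)
  exact ⟨t, ht.symm⟩

/-! ### traces -/

def tr (g : ↥(Cfsg.Sz F m)) : F := (mat m g).trace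

theorem tr_comm (g h : ↥(Cfsg.Sz F m)) : tr m (g * h) = tr m (h * g) := by
  unfold tr; rw [mat_mul, mat_mul, Matrix.trace_mul_comm]

theorem tr_conj (x g : ↥(Cfsg.Sz F m)) : tr m (x * g * x⁻¹) = tr m g := by
  rw [tr_comm, ← mul_assoc, inv_mul_cancel, one_mul]

theorem tr_inv (g : ↥(Cfsg.Sz F m)) : tr m g⁻¹ = tr m g := by
  have h1 : (mat m g)ᵀ * Wm F * mat m g = Wm F := form_all m g
  have h2 : mat m g * mat m g⁻¹ = 1 := by rw [← mat_mul, mul_inv_cancel]; rfl
  have h3 : mat m g⁻¹ = Wm F * (mat m g)ᵀ * Wm F := by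
    calc mat m g⁻¹ = (Wm F * Wm F) * mat m g⁻¹ := by rw [Wm_mul, Matrix.one_mul]
      _ = (Wm F * ((mat m g)ᵀ * Wm F * mat m g)) * mat m g⁻¹ := by rw [h1]
      _ = Wm F * (mat m g)ᵀ * Wm F * (mat m g * mat m g⁻¹) := by simp only [Matrix.mul_assoc]
      _ = _ := by rw [h2, Matrix.mul_one]
  unfold tr
  rw [h3, Matrix.trace_mul_comm, ← Matrix.mul_assoc, Wm_mul, Matrix.one_mul, Matrix.trace_transpose]

theorem tr_U (a b : F) : tr m (U m a b) = 0 := by
  unfold tr
  rw [mat_U, Matrix.trace, Fin.sum_univ_four]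
  simp [Um]
  linear_combination 2 * (two0 m : (2 : F) = 0)

theorem tr_UW (a b : F) : tr m (U m a b * W F m) = ff m a b + th m a := by
  unfold tr
  rw [mat_mul, mat_U, mat_W, Matrix.trace, Fin.sum_univ_four]
  simp [Um, Wm, Matrix.mul_apply, Fin.sum_univ_four]

/-- upper times lower -/
theorem tr_UWUW (a b c d : F) : tr m (U m a b * (W F m * U m c d * W F m)) =
    a * th m a * d + b * (c * th m c) + th m a * th m c + ff m a b * ff m c d := by
  unfold tr
  rw [mat_mul, mat_mul, mat_mul, mat_U, mat_W, mat_U, Matrix.trace, Fin.sum_univ_four]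
  simp [Um, Wm, Matrix.mul_apply, Fin.sum_univ_four]
  linear_combination (2 + a * c + b * d) * (two0 m : (2 : F) = 0)

/-- the product used for semisimple classes -/
theorem tr_four (y e c : F) : tr m (U m 0 y * (W F m * U m 0 e * W F m) * U m 0 y * (W F m * U m 0 c * W F m)) = th m e * th m c * (th m y) ^ 2 := by
  unfold tr
  rw [mat_mul, mat_mul, mat_mul, mat_mul, mat_mul, mat_mul, mat_mul, mat_U, mat_W, mat_U, mat_U, Matrix.trace, Fin.sum_univ_four]
  simp [Um, Wm, Matrix.mul_apply, Fin.sum_univ_four, ff, th_zero]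
  linear_combination (th m c * th m y + th m c * th m y * e * y + th m e * th m y + th m e * th m y * c * y + c * e * y ^ 2 + 2 * (c * y) + 2 * (e * y) + 2) * (two0 m : (2 : F) = 0)

/-! ### semisimple classes -/

/-- the standard representative -/
def std (c : F) : ↥(Cfsg.Sz F m) := U m 0 1 * (W F m * U m 0 c * W F m)

theorem tr_std (c : F) : tr m (std m c) = th m c := by
  unfold std
  rw [tr_UWUW]
  simp [ff, th_zero, th_one]

/-- non-unipotent elements -/
def SS (x : ↥(Cfsg.Sz F m)) : Prop := ¬ ∃ y, y⁻¹ * x * y ∈ Q F m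

theorem SS_inverted {x : ↥(Cfsg.Sz F m)} (hx : SS m x) : ∃ t s : ↥(Cfsg.Sz F m), t * t = 1 ∧ t ≠ 1 ∧ s * s = 1 ∧ s ≠ 1 ∧ x = t * s := by
  have hx1 : x ≠ 1 := by
    rintro rfl
    exact hx ⟨1, by simp [Subgroup.one_mem]⟩
  obtain ⟨X, hX, hxX, c, hc, h2⟩ : ∃ X : Subgroup ↥(Cfsg.Sz F m), Comp2 m X ∧ x ∈ X ∧ ∃ c, Nat.card (NN m X) = c * Nat.card X ∧ 2 ∣ c := by
    rcases trich m x with h | ⟨y, k, hk, hy⟩ | h
    · exact absurd h hx
    · refine ⟨cj y (TT F m), Or.inl ⟨y, rfl⟩, ?_, 2, ?_, dvd_rfl⟩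
      · rw [mem_cj, hy]
        exact ⟨k, by group⟩
      · show Nat.card (Subgroup.normalizer ((cj y (TT F m) : Subgroup ↥(Cfsg.Sz F m)) : Set ↥(Cfsg.Sz F m))) = _
        rw [norm_cj, card_cj, card_cj, card_norm_TT, card_TT]
    · have hT : IsTor m (Subgroup.centralizer {x}) := ⟨x, h, rfl⟩
      exact ⟨Subgroup.centralizer {x}, Or.inr hT, mem_cent_self x, 4, (tor_four m hT).1, by norm_num⟩
  obtain ⟨t, ht, t2, t1⟩ := exists_invol m hc h2
  have h3 := invol_inverts m hX ht t2 t1 hxX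
  have hi : t⁻¹ = t := inv_eq_of_mul_eq_one_left t2
  refine ⟨t, t * x, t2, t1, ?_, ?_, ?_⟩
  · rw [hi] at h3
    calc t * x * (t * x) = (t * x * t) * x := by group
      _ = 1 := by rw [h3, inv_mul_cancel]
  · intro h
    have h4 : x = t := by
      rw [← hi, eq_comm, inv_eq_iff_mul_eq_one]; exact h
    rw [h4] at hxX
    exact t1 (odd_card_elt m hX hxX t2)
  · rw [← mul_assoc, t2, one_mul]

theorem SS_std {x : ↥(Cfsg.Sz F m)} (hx : SS m x) : ∃ c : F, c ≠ 0 ∧ ∃ g, x = g * std m c * g⁻¹ := by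
  obtain ⟨t, s, t2, t1, s2, s1, hts⟩ := SS_inverted m hx
  obtain ⟨p, hp, -⟩ := invol_fix m t2 t1
  obtain ⟨p', hp', -⟩ := invol_fix m s2 s1
  haveI := pretrans F m
  have hne : p ≠ p' := by
    rintro rfl
    apply hx
    obtain ⟨y, hy⟩ := MulAction.exists_smul_eq ↥(Cfsg.Sz F m) (oi F m) p
    refine ⟨y, ?_⟩
    have key : ∀ t : ↥(Cfsg.Sz F m), t * t = 1 → t • p = p → y⁻¹ * t * y ∈ Q F m := by
      intro t t2 hp
      apply Z_le_Q
      apply mem_Z_of_sq
      · rw [mul_smul, mul_smul, hy, hp, ← hy, inv_smul_smul]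
      · calc y⁻¹ * t * y * (y⁻¹ * t * y) = y⁻¹ * (t * t) * y := by group
          _ = 1 := by rw [t2]; group
    have e : y⁻¹ * x * y = (y⁻¹ * t * y) * (y⁻¹ * s * y) := by rw [hts]; group
    rw [e]
    exact (Q F m).mul_mem (key t t2 hp) (key s s2 hp')
  have h2t : ∀ {a b c d : Om F m}, a ≠ b → c ≠ d → ∃ g : ↥(Cfsg.Sz F m), g • a = c ∧ g • b = d := (MulAction.is_two_pretransitive_iff).1 (two_trans (F := F) m)
  obtain ⟨g, hg1, hg2⟩ := h2t (op_ne_oi (F := F) m 0 0).symm hne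
  have k1 : g⁻¹ * t * g ∈ Z F m := by
    apply mem_Z_of_sq
    · rw [mul_smul, mul_smul, hg1, hp, ← hg1, inv_smul_smul]
    · calc g⁻¹ * t * g * (g⁻¹ * t * g) = g⁻¹ * (t * t) * g := by group
        _ = 1 := by rw [t2]; group
  have k2 : (g * W F m)⁻¹ * s * (g * W F m) ∈ Z F m := by
    apply mem_Z_of_sq
    · rw [mul_smul, mul_smul, mul_smul, W_oi, hg2, hp', ← hg2, inv_smul_eq_iff, mul_smul, W_oi]
    · calc (g * W F m)⁻¹ * s * (g * W F m) * ((g * W F m)⁻¹ * s * (g * W F m)) = (g * W F m)⁻¹ * (s * s) * (g * W F m) := by group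
        _ = 1 := by rw [s2]; group
  obtain ⟨b₁, hb₁⟩ := k1
  obtain ⟨b₂, hb₂⟩ := k2
  have n1 : b₁ ≠ 0 := by
    rintro rfl
    rw [U_zero] at hb₁
    exact conj_ne t1 hb₁
  have n2 : b₂ ≠ 0 := by
    rintro rfl
    rw [U_zero] at hb₂
    exact conj_ne s1 hb₂
  obtain ⟨k, hk⟩ := exists_kth m (Units.mk0 b₁ n1)
  rw [Units.val_mk0] at hk
  have hk0 : (k : F) * th m (k : F) ≠ 0 := by rw [hk]; exact n1
  have e1 : T m k * U m 0 1 * (T m k)⁻¹ = U m 0 b₁ := by rw [T_conj_U, mul_zero, mul_one, hk]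
  have e2 : (T m k)⁻¹ * U m 0 (b₁ * b₂) * T m k = U m 0 b₂ := by
    have := T_conj_U m k⁻¹ 0 (b₁ * b₂)
    rw [map_inv, inv_inv, mul_zero, Units.val_inv_eq_inv_val, th_inv, ← _root_.mul_inv, hk] at this
    rw [this]
    congr 1
    field_simp
  have e3 : W F m * (T m k)⁻¹ = T m k * W F m := by
    have := W_T m k⁻¹
    rwa [map_inv, inv_inv] at this
  have e4 : T m k * W F m = W F m * (T m k)⁻¹ := e3.symm
  have e5 : (T m k)⁻¹ * W F m = W F m * T m k := by
    have := W_T m k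
    rw [map_inv] at this
    exact this.symm
  refine ⟨b₁ * b₂, mul_ne_zero n1 n2, g * T m k, ?_⟩
  have f1 : t = g * U m 0 b₁ * g⁻¹ := by rw [← hb₁]; group
  have f2 : s = (g * W F m) * U m 0 b₂ * (g * W F m)⁻¹ := by rw [← hb₂]; group
  rw [hts, f1, f2, std, ← e1, ← e2]
  calc g * (T m k * U m 0 1 * (T m k)⁻¹) * g⁻¹ * (g * W F m * ((T m k)⁻¹ * U m 0 (b₁ * b₂) * T m k) * (g * W F m)⁻¹)
      = g * T m k * U m 0 1 * (T m k)⁻¹ * (W F m * (T m k)⁻¹) * U m 0 (b₁ * b₂) * (T m k * (W F m)⁻¹) * g⁻¹ := by group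
    _ = g * T m k * U m 0 1 * (T m k)⁻¹ * (T m k * W F m) * U m 0 (b₁ * b₂) * (W F m * (T m k)⁻¹) * g⁻¹ := by rw [e3, W_inv, e4]
    _ = g * T m k * (U m 0 1 * (W F m * U m 0 (b₁ * b₂) * W F m)) * (g * T m k)⁻¹ := by group

theorem unip_tr {x : ↥(Cfsg.Sz F m)} (hx : ¬ SS m x) : tr m x = 0 := by
  have h : ∃ y, y⁻¹ * x * y ∈ Q F m := by
    by_contra hcon; exact hx hcon
  obtain ⟨y, a, b, hy⟩ := h
  have e : x = y * (y⁻¹ * x * y) * y⁻¹ := by group
  rw [e, tr_conj, hy, tr_U]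

theorem SS_tr {x : ↥(Cfsg.Sz F m)} (hx : SS m x) : tr m x ≠ 0 := by
  obtain ⟨c, hc, g, hg⟩ := SS_std m hx
  rw [hg, tr_conj, tr_std]
  exact fun h => hc ((th_eq_zero m).1 h)

theorem SS_iff {x : ↥(Cfsg.Sz F m)} : SS m x ↔ tr m x ≠ 0 := ⟨SS_tr m, fun h => by by_contra hcon; exact h (unip_tr m hcon)⟩

/-- the trace determines the class -/
theorem tr_isConj {x y : ↥(Cfsg.Sz F m)} (hx : tr m x ≠ 0) (h : tr m x = tr m y) : IsConj x y := by
  obtain ⟨c, hc, g, hg⟩ := SS_std m ((SS_iff m).2 hx)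
  rw [h] at hx
  obtain ⟨d, hd, g', hg'⟩ := SS_std m ((SS_iff m).2 hx)
  rw [hg, hg', tr_conj, tr_conj, tr_std, tr_std] at h
  have hcd := th_inj m h
  rw [hg, hg', hcd]
  exact (isConj_iff.2 ⟨g⁻¹, by group⟩ : IsConj (g * std m d * g⁻¹) (std m d)).trans (isConj_iff.2 ⟨g', rfl⟩)

end Cfsg.Agent.H8.Suz
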