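import Mathlib
import Cfsg.Agent.H8.SzCl

set_option autoImplicit false

namespace Cfsg.Agent.H8.Suz

open Matrix Cfsg.Agent.H8.TI
open scoped Pointwise

/-- `g` is a product of two conjugates of `x` -/
def CC {G : Type*} [Group G] (x g : G) : Prop := ∃ y y', IsConj x y ∧ IsConj x y' ∧ g = y * y'

theorem CC_right {G : Type*} [Group G] {x g g' : G} (h : IsConj g g') (hc : CC x g) : CC x g' := by
  obtain ⟨y, y', h1, h2, rfl⟩ := hc
  obtain ⟨c, rfl⟩ := isConj_iff.1 h
  refine ⟨c * y * c⁻¹, c * y' * c⁻¹, h1.trans (isConj_iff.2 ⟨c, rfl⟩), h2.trans (isConj_iff.2 ⟨c, rfl⟩), by group⟩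

variable {F : Type*} [Field F] [Fintype F] (m : ℕ) [H : Hyp F m]

theorem case_ss_ss {x g : ↥(Cfsg.Sz F m)} (hx : tr m x ≠ 0) (hg : tr m g ≠ 0) : CC x g := by
  have h2 := (two0 m : (2 : F) = 0)
  obtain ⟨e, he⟩ : ∃ e, e = rh m (tr m x) := ⟨_, rfl⟩
  obtain ⟨c, hc⟩ : ∃ c, c = rh m (tr m g) := ⟨_, rfl⟩
  have he' : th m e = tr m x := by rw [he, th_rh']
  have hc' : th m c = tr m g := by rw [hc, th_rh']
  have hc0 : c ≠ 0 := by
    rintro h
    rw [h, th_zero] at hc'
    exact hg hc'.symm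
  obtain ⟨y, hy⟩ : ∃ y, y = rh m (rh m c⁻¹) := ⟨_, rfl⟩
  have hy' : y ^ 2 * c = 1 := by rw [hy, rh_sq, th_rh', inv_mul_cancel₀ hc0]
  obtain ⟨L, hL⟩ : ∃ L, L = W F m * U m 0 e * W F m := ⟨_, rfl⟩
  obtain ⟨L', hL'⟩ : ∃ L', L' = W F m * U m 0 c * W F m := ⟨_, rfl⟩
  have hLL : L * L = 1 := by
    have hW := W_mul (F := F) m
    calc L * L = W F m * U m 0 e * (W F m * W F m) * U m 0 e * W F m := by rw [hL]; group
      _ = W F m * (U m 0 e * U m 0 e) * W F m := by rw [hW]; group
      _ = 1 := by rw [U0_sq', mul_one, hW]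
  have hUy := U0_sq' m y
  have hgs : IsConj (std m c) g := by
    apply tr_isConj m
    · rw [tr_std, hc']; exact hg
    · rw [tr_std, hc']
  apply CC_right hgs
  have hs2 : (U m 0 y * L * U m 0 y) * (U m 0 y * L * U m 0 y) = 1 := by
    calc (U m 0 y * L * U m 0 y) * (U m 0 y * L * U m 0 y) = U m 0 y * L * (U m 0 y * U m 0 y) * L * U m 0 y := by group
      _ = U m 0 y * (L * L) * U m 0 y := by rw [hUy]; group
      _ = 1 := by rw [hLL, mul_one, hUy]
  refine ⟨U m 0 1 * (U m 0 y * L * U m 0 y), (U m 0 y * L * U m 0 y) * L', ?_, ?_, ?_⟩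
  · apply tr_isConj m hx
    rw [← he', ← tr_std, std, ← hL]
    have e1 : U m 0 1 * (U m 0 y * L * U m 0 y) = (U m 0 1 * U m 0 y * L) * U m 0 y := by group
    rw [e1, tr_comm m (U m 0 1 * U m 0 y * L) (U m 0 y)]
    have e2 : U m 0 y * (U m 0 1 * U m 0 y * L) = (U m 0 y * U m 0 1 * U m 0 y) * L := by group
    have e3 : U m 0 y * U m 0 1 * U m 0 y = U m 0 1 := by
      rw [U0_mul, U0_mul]
      congr 1
      linear_combination y * h2
    rw [e2, e3]
  · apply tr_isConj m hx
    rw [hL, hL', tr_four, ← he']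
    have : th m e * th m c * th m y ^ 2 = th m e * th m (y ^ 2 * c) := by rw [th_mul, th_pow]; ring
    rw [this, hy', th_one, mul_one]
  · rw [std, ← hL']
    calc U m 0 1 * L' = U m 0 1 * 1 * L' := by group
      _ = U m 0 1 * ((U m 0 y * L * U m 0 y) * (U m 0 y * L * U m 0 y)) * L' := by rw [hs2]
      _ = _ := by group

include H in
theorem exists_e {a : F} (ha : a ≠ 0) : ∃ e : F, ¬ II m (a * e ^ 2 * th m e + e) := by
  have h2 := (two0 m : (2 : F) = 0)
  by_contra hcon
  push Not at hcon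
  have key : ∀ e k : F, II m ((a * e ^ 2 + rh m a * e) * th m k) := by
    intro e k
    have h1 := II_add m (II_add m (hcon (e + k)) (hcon e)) (hcon k)
    have h3 : II m (a * e ^ 2 * th m k + a * k ^ 2 * th m e) := by
      have e1 : a * (e + k) ^ 2 * th m (e + k) + (e + k) + (a * e ^ 2 * th m e + e) + (a * k ^ 2 * th m k + k) = a * e ^ 2 * th m k + a * k ^ 2 * th m e := by
        rw [th_add]
        linear_combination (e + k + a * e ^ 2 * th m e + a * k ^ 2 * th m k + a * e * k * (th m e + th m k)) * h2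
      rwa [e1] at h1
    have h4 : II m (rh m a * e * th m k + a * k ^ 2 * th m e) := by
      have h5 := II_th m (rh m a * e * th m k)
      have e1 : th m (rh m a * e * th m k) = a * k ^ 2 * th m e := by rw [th_mul, th_mul, th_rh', th_th]; ring
      rwa [e1] at h5
    have h5 := II_add m h3 h4
    have e1 : a * e ^ 2 * th m k + a * k ^ 2 * th m e + (rh m a * e * th m k + a * k ^ 2 * th m e) = (a * e ^ 2 + rh m a * e) * th m k := by
      linear_combination (a * k ^ 2 * th m e) * h2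
    rwa [e1] at h5
  have h0 : ∀ e : F, a * e ^ 2 + rh m a * e = 0 := by
    intro e
    apply II_all m
    intro k
    have := key e (rh m k)
    rwa [th_rh'] at this
  obtain ⟨y, y0, y1⟩ := exists_ne01 (F := F) (by have := card_ge (F := F) m; omega)
  have e1 := h0 1
  have e2 := h0 y
  have e3 : a * (y * (y - 1)) = 0 := by linear_combination e2 - y * e1
  rcases mul_eq_zero.1 e3 with h | h
  · exact ha h
  · rcases mul_eq_zero.1 h with h | h
    · exact y0 h
    · exact y1 (sub_eq_zero.1 h)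

include H in
theorem exists_cp {a : F} (ha : a ≠ 0) : ∃ c s : F, c ≠ 0 ∧ ff m c (c * th m c * s) + th m c = a ∧ ff m c (c * th m c * (s + 1)) + th m c = a := by
  have h2 := (two0 m : (2 : F) = 0)
  obtain ⟨e, he⟩ := exists_e m ha
  have he0 : e ≠ 0 := by
    rintro rfl
    apply he
    have : a * 0 ^ 2 * th m 0 + 0 = (0 : F) := by ring
    rw [this]; exact II_zero m
  have hθe : th m e ≠ 0 := fun h => he0 ((th_eq_zero m).1 h)
  have h1 : II m (a * e ^ 2 * th m e + e ^ 2 + 1) := by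
    rw [II_not] at he
    apply II_sub m _ he
    have h3 : II m (e + e ^ 2) := by
      have h4 := II_add m (II_th m e) (II_th m (th m e))
      rw [th_th] at h4
      have e1 : e + th m e + (th m e + e ^ 2) = e + e ^ 2 := by linear_combination (th m e) * h2
      rwa [e1] at h4
    have e1 : a * e ^ 2 * th m e + e + 1 + (a * e ^ 2 * th m e + e ^ 2 + 1) = e + e ^ 2 := by
      linear_combination (a * e ^ 2 * th m e + 1) * h2
    rw [e1]; exact h3
  obtain ⟨s, hs⟩ := h1
  have key : ∀ s : F, s + th m s = a * e ^ 2 * th m e + e ^ 2 + 1 → ff m e⁻¹ (e⁻¹ * th m e⁻¹ * s) + th m e⁻¹ = a := by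
    intro s hs
    unfold ff
    rw [th_mul, th_mul, th_th, th_inv]
    have e1 : e⁻¹ * (e⁻¹ * (th m e)⁻¹ * s) + (th m e)⁻¹ * e⁻¹ ^ 2 + (th m e)⁻¹ * e⁻¹ ^ 2 * th m s + (th m e)⁻¹ = (e⁻¹ ^ 2 * (th m e)⁻¹) * (s + th m s + 1 + e ^ 2) := by
      field_simp
      ring
    rw [e1, hs]
    field_simp
    linear_combination (e ^ 2 + 1) * h2
  refine ⟨e⁻¹, s, inv_ne_zero he0, key s hs, key (s + 1) ?_⟩
  rw [← hs, th_add, th_one]
  linear_combination h2

theorem case_ss_unip {x g : ↥(Cfsg.Sz F m)} (hx : tr m x ≠ 0) (hg : ¬ SS m g) (g1 : g ≠ 1) : CC x g := by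
  have h2 := (two0 m : (2 : F) = 0)
  have hg' : ∃ y, y⁻¹ * g * y ∈ Q F m := by
    by_contra hcon; exact hg hcon
  obtain ⟨y, a', b', hy⟩ := hg'
  have hgy : IsConj (U m a' b') g := by
    rw [← hy]; exact isConj_iff.2 ⟨y, by group⟩
  apply CC_right hgy
  obtain ⟨c, s, hc, hs1, hs2⟩ := exists_cp m hx
  obtain ⟨y1, hy1⟩ : ∃ y1, y1 = U m c (c * th m c * s) * W F m := ⟨_, rfl⟩
  obtain ⟨y2, hy2⟩ : ∃ y2, y2 = U m c (c * th m c * (s + 1)) * W F m := ⟨_, rfl⟩
  obtain ⟨y0, hy0⟩ : ∃ y0, y0 = U m 0 (rh m (tr m x)) * W F m := ⟨_, rfl⟩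
  have t1 : tr m y1 = tr m x := by rw [hy1, tr_UW, hs1]
  have t2 : tr m y2 = tr m x := by rw [hy2, tr_UW, hs2]
  have t0 : tr m y0 = tr m x := by
    rw [hy0, tr_UW]
    simp only [ff, th_zero, th_rh']
    ring
  have c1 : IsConj x y1 := tr_isConj m hx t1.symm
  have c0 : IsConj x y0 := tr_isConj m hx t0.symm
  have c2 : IsConj x y2 := tr_isConj m hx t2.symm
  have c1' : IsConj x y1⁻¹ := tr_isConj m hx (by rw [tr_inv, t1])
  have c0' : IsConj x y0⁻¹ := tr_isConj m hx (by rw [tr_inv, t0])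
  have hθc : th m c ≠ 0 := fun h => hc ((th_eq_zero m).1 h)
  by_cases ha : a' = 0
  · -- involution
    rw [ha]
    have e1 : y2 * y1⁻¹ = U m 0 (c * th m c) := by
      rw [hy1, hy2]
      have : U m c (c * th m c * (s + 1)) * W F m * (U m c (c * th m c * s) * W F m)⁻¹ = U m c (c * th m c * (s + 1)) * (U m c (c * th m c * s))⁻¹ := by group
      rw [this, U_inv, U_mul, add_self m c]
      congr 1
      linear_combination (c * th m c * s + c * th m c) * h2
    have b0 : b' ≠ 0 := by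
      rintro rfl
      rw [ha, U_zero] at hy
      exact conj_ne g1 hy
    have n1 : U m 0 (c * th m c) ≠ 1 := by
      rw [← U_zero m]; intro h
      rcases mul_eq_zero.1 (U_inj m h).2 with h | h
      · exact hc h
      · exact hθc h
    have n2 : U m 0 b' ≠ 1 := by
      rw [← U_zero m]; intro h
      exact b0 (U_inj m h).2
    obtain ⟨z, hz⟩ := invol_conj m (U0_sq' m (c * th m c)) n1 (U0_sq' m b') n2
    have : IsConj (U m 0 (c * th m c)) (U m 0 b') := isConj_iff.2 ⟨z⁻¹, by rw [hz, inv_inv]⟩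
    apply CC_right this
    exact ⟨y2, y1⁻¹, c2, c1', e1.symm⟩
  · have e1 : ∃ d, y1 * y0⁻¹ = U m c d := by
      rw [hy1, hy0]
      have : U m c (c * th m c * s) * W F m * (U m 0 (rh m (tr m x)) * W F m)⁻¹ = U m c (c * th m c * s) * (U m 0 (rh m (tr m x)))⁻¹ := by group
      rw [this, U_inv, U_mul, add_zero]
      exact ⟨_, rfl⟩
    obtain ⟨d, hd⟩ := e1
    rcases four_conj m (a := c) (b := d) (c := a') (d := b') hc ha with ⟨z, hz⟩ | ⟨z, hz⟩
    · have : IsConj (U m c d) (U m a' b') := isConj_iff.2 ⟨z⁻¹, by rw [hz, inv_inv]⟩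
      exact CC_right this ⟨y1, y0⁻¹, c1, c0', hd.symm⟩
    · have h3 : U m a' b' = z⁻¹ * (U m c d)⁻¹ * z := by
        rw [← _root_.inv_inv (U m a' b'), hz]; group
      have : IsConj (U m c d)⁻¹ (U m a' b') := isConj_iff.2 ⟨z⁻¹, by rw [h3, _root_.inv_inv]⟩
      exact CC_right this ⟨y0, y1⁻¹, c0, c1', by rw [← hd]; group⟩

/-! ### elements of order four -/

theorem U1_conj {b b' : F} (h : II m (b + b')) : IsConj (U m 1 b) (U m 1 b') := by
  have h2 := (two0 m : (2 : F) = 0)
  obtain ⟨s, hs⟩ := h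
  rw [isConj_iff]
  refine ⟨U m s 0, ?_⟩
  rw [U_inv, U_mul, U_mul]
  congr 1
  · linear_combination s * h2
  · rw [th_add, th_one]
    linear_combination hs + (th m s * s + b) * h2

include H in
theorem exists_f {τ : F} (hτ : τ ≠ 0) : ∃ f : F, ¬ II m f ∧ II m (τ * f * th m f) := by
  have h2 := (two0 m : (2 : F) = 0)
  obtain ⟨μ', hμ⟩ := exists_kth m (Units.mk0 τ hτ)
  rw [Units.val_mk0] at hμ
  obtain ⟨μ, hμμ⟩ : ∃ μ : F, μ = μ' := ⟨_, rfl⟩
  have hμ0 : μ ≠ 0 := by rw [hμμ]; exact μ'.ne_zero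
  rw [← hμμ] at hμ
  by_contra hcon
  push Not at hcon
  have hcon' : ∀ h : F, ¬ II m (h * μ⁻¹) → ¬ II m (h * th m h) := by
    intro h hh
    have := hcon _ hh
    have e : τ * (h * μ⁻¹) * th m (h * μ⁻¹) = h * th m h := by
      have hθ : th m μ ≠ 0 := fun h => hμ0 ((th_eq_zero m).1 h)
      rw [← hμ, th_mul, th_inv]
      field_simp
    rwa [e] at this
  have hone : ∀ h : F, II m (h * th m h + (1 + h) * th m (1 + h) + 1) := by
    intro h
    have e : h * th m h + (1 + h) * th m (1 + h) + 1 = h + th m h := by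
      rw [th_add, th_one]
      linear_combination (h * th m h + 1) * h2
    rw [e]; exact II_th m h
  by_cases hμI : II m μ⁻¹
  · -- `1/μ ∈ I`
    have h1 : ¬ II m (μ * μ⁻¹) := by rw [mul_inv_cancel₀ hμ0]; exact II_one m
    have h3 := hcon' _ h1
    have h4 : ¬ II m ((1 + μ) * μ⁻¹) := by
      intro h
      apply h1
      have := II_add m h hμI
      have e : (1 + μ) * μ⁻¹ + μ⁻¹ = μ * μ⁻¹ := by linear_combination μ⁻¹ * h2
      rwa [e] at this
    have h5 := hcon' _ h4
    rw [II_not] at h3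
    apply h5
    apply II_sub m _ h3
    have := hone μ
    have e : μ * th m μ + 1 + (1 + μ) * th m (1 + μ) = μ * th m μ + (1 + μ) * th m (1 + μ) + 1 := by ring
    rw [e]; exact this
  · -- `1/μ ∉ I`
    have hiff : ∀ h : F, II m (h * th m h + h * μ⁻¹) := by
      intro h
      by_cases hh : II m (h * μ⁻¹)
      · have h4 : ¬ II m ((1 + h) * μ⁻¹) := by
          intro h'
          apply hμI
          have := II_add m h' hh
          have e : (1 + h) * μ⁻¹ + h * μ⁻¹ = μ⁻¹ := by linear_combination (h * μ⁻¹) * h2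
          rwa [e] at this
        have h5 := hcon' _ h4
        rw [II_not] at h5
        have h6 : II m (h * th m h) := by
          have := II_add m (hone h) h5
          have e : h * th m h + (1 + h) * th m (1 + h) + 1 + ((1 + h) * th m (1 + h) + 1) = h * th m h := by
            linear_combination ((1 + h) * th m (1 + h) + 1) * h2
          rwa [e] at this
        exact II_add m h6 hh
      · have h5 := hcon' _ hh
        rw [II_not] at hh h5
        have := II_add m h5 hh
        have e : h * th m h + 1 + (h * μ⁻¹ + 1) = h * th m h + h * μ⁻¹ := by linear_combination h2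
        rwa [e] at this
    have key : ∀ h k : F, II m ((h + h ^ 2) * th m k) := by
      intro h k
      have h1 := II_add m (II_add m (hiff (h + k)) (hiff h)) (hiff k)
      have h3 : II m (h * th m k + k * th m h) := by
        have e : (h + k) * th m (h + k) + (h + k) * μ⁻¹ + (h * th m h + h * μ⁻¹) + (k * th m k + k * μ⁻¹) = h * th m k + k * th m h := by
          rw [th_add]
          linear_combination (h * th m h + k * th m k + h * μ⁻¹ + k * μ⁻¹) * h2
        rwa [e] at h1
      have h4 := II_th m (k * th m h)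
      rw [th_mul, th_th] at h4
      have := II_add m h3 h4
      have e : h * th m k + k * th m h + (k * th m h + th m k * h ^ 2) = (h + h ^ 2) * th m k := by
        linear_combination (k * th m h) * h2
      rwa [e] at this
    obtain ⟨y, y0, y1⟩ := exists_ne01 (F := F) (by have := card_ge (F := F) m; omega)
    have h0 : y + y ^ 2 = 0 := by
      apply II_all m
      intro k
      have := key y (rh m k)
      rwa [th_rh'] at this
    have e3 : y * (y - 1) = 0 := by linear_combination h0 - y * h2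
    rcases mul_eq_zero.1 e3 with h | h
    · exact y0 h
    · exact y1 (sub_eq_zero.1 h)

theorem case_four_ss {β₀ : F} {g : ↥(Cfsg.Sz F m)} (hg : tr m g ≠ 0) : CC (U m 1 β₀) g := by
  have h2 := (two0 m : (2 : F) = 0)
  obtain ⟨f, hf, hτf⟩ := exists_f m hg
  have hf0 : f ≠ 0 := by
    rintro rfl
    exact hf (II_zero m)
  have hθf : th m f ≠ 0 := fun h => hf0 ((th_eq_zero m).1 h)
  have h1 := (II_not m).1 hf
  obtain ⟨s, hs⟩ := h1
  obtain ⟨b, hb, hbI⟩ : ∃ b, b + th m b = f + 1 ∧ II m (b + β₀) := by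
    by_cases h : II m (s + β₀)
    · exact ⟨s, hs, h⟩
    · refine ⟨s + 1, ?_, ?_⟩
      · rw [← hs, th_add, th_one]; linear_combination h2
      · rw [II_not] at h
        have e : s + 1 + β₀ = s + β₀ + 1 := by ring
        rw [e]; exact h
  obtain ⟨e, he⟩ : ∃ e, e = b + rh m (tr m g * f * th m f) := ⟨_, rfl⟩
  have heI : II m (e + β₀) := by
    have h3 := (II_rh_iff m _).1 hτf
    have := II_add m hbI h3
    have e1 : b + β₀ + rh m (tr m g * f * th m f) = e + β₀ := by rw [he]; ring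
    rwa [e1] at this
  have hbe : th m (b + e) = tr m g * f * th m f := by
    have : b + e = rh m (tr m g * f * th m f) := by rw [he]; linear_combination b * h2
    rw [this, th_rh']
  obtain ⟨k, hk⟩ : ∃ k : Fˣ, (k : F) = f⁻¹ := ⟨Units.mk0 f⁻¹ (inv_ne_zero hf0), rfl⟩
  have hU : T m k * U m 1 e * (T m k)⁻¹ = U m f⁻¹ (f⁻¹ * th m f⁻¹ * e) := by rw [T_conj_U, hk, mul_one]
  obtain ⟨P, hP⟩ : ∃ P, P = U m 1 b * (W F m * U m f⁻¹ (f⁻¹ * th m f⁻¹ * e) * W F m) := ⟨_, rfl⟩
  have htr : tr m P = tr m g := by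
    rw [hP, tr_UWUW]
    have hff : ff m 1 b = f := by
      unfold ff
      rw [th_one]
      linear_combination hb + h2
    have hfe : ff m f⁻¹ (f⁻¹ * th m f⁻¹ * e) = f⁻¹ ^ 2 * (th m f)⁻¹ * (e + th m e + 1) := by
      unfold ff
      rw [th_mul, th_mul, th_th, th_inv]
      ring
    rw [hff, hfe, th_one, th_inv]
    rw [th_add] at hbe
    field_simp
    linear_combination hbe - hb + (b + e) * h2
  have hconj : IsConj P g := tr_isConj m (by rw [htr]; exact hg) htr
  apply CC_right hconj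
  refine ⟨U m 1 b, W F m * U m f⁻¹ (f⁻¹ * th m f⁻¹ * e) * W F m, ?_, ?_, hP⟩
  · apply U1_conj
    rw [add_comm]; exact hbI
  · have h3 : IsConj (U m 1 β₀) (U m 1 e) := by
      apply U1_conj
      rw [add_comm]; exact heI
    refine h3.trans (isConj_iff.2 ⟨W F m * T m k, ?_⟩)
    rw [← hU]
    have := W_inv (F := F) m
    calc W F m * T m k * U m 1 e * (W F m * T m k)⁻¹ = W F m * (T m k * U m 1 e * (T m k)⁻¹) * (W F m)⁻¹ := by group
      _ = _ := by rw [this]

end Cfsg.Agent.H8.Suz
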