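import Mathlib
import Cfsg.Agent.H8.SzP

set_option autoImplicit false

namespace Cfsg.Agent.H8.Suz

open Matrix Cfsg.Agent.H8.TI
open scoped Pointwise

variable {F : Type*} [Field F] [Fintype F] (m : ℕ) [H : Hyp F m]

theorem mat_inv_vec (x : ↥(Cfsg.Sz F m)) (v : Fin 4 → F) : mat m x⁻¹ *ᵥ (mat m x *ᵥ v) = v := by
  rw [Matrix.mulVec_mulVec, ← mat_mul, inv_mul_cancel]
  exact Matrix.one_mulVec v

theorem T_novec {k : Fˣ} (hk : (k : F) ≠ 1) {v : Fin 4 → F} (hv : mat m (T m k) *ᵥ v = v) : v = 0 := by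
  have h1 : mat m (T m k) = Hm m (k : F) := rfl
  rw [h1, Hm] at hv
  have hr : rh m (k : F) ≠ 1 := by
    intro h
    apply hk
    rw [← th_rh' m (k : F), h, th_one]
  have hkr : (k : F) * rh m (k : F) ≠ 1 := by
    intro h
    apply hk
    have h2 := congrArg (fun z => z ^ 2) h
    simp only [mul_pow, rh_sq, one_pow] at h2
    -- k² θ k = 1
    have h3 := congrArg (th m) h2
    rw [th_mul, th_pow, th_th, th_one] at h3
    -- (θk)² k² = 1
    have h4 : th m (k : F) * ((k : F) ^ 2 * th m (k : F)) = 1 := by linear_combination h3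
    rw [h2, mul_one] at h4
    rw [h4, mul_one] at h2
    exact sq_inj m (h2.trans (one_pow 2).symm)
  have hr0 : rh m (k : F) ≠ 0 := fun h => k.ne_zero ((rh_eq_zero m).1 h)
  have hkr0 : (k : F) * rh m (k : F) ≠ 0 := mul_ne_zero k.ne_zero hr0
  have key : ∀ c : F, ∀ x : F, c ≠ 1 → c * x = x → x = 0 := by
    intro c x hc h
    have : (c - 1) * x = 0 := by linear_combination h
    rcases mul_eq_zero.1 this with h | h
    · exact absurd (sub_eq_zero.1 h) hc
    · exact h
  ext i
  have h2 := congrFun hv i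
  rw [Matrix.mulVec_diagonal] at h2
  fin_cases i
  · exact key _ _ hkr h2
  · exact key _ _ hr h2
  · apply key _ _ _ h2
    intro h3
    apply hr
    have : (rh m (k : F))⁻¹ = 1 := h3
    rwa [_root_.inv_eq_one] at this
  · apply key _ _ _ h2
    intro h3
    apply hkr
    have : ((k : F) * rh m (k : F))⁻¹ = 1 := h3
    rwa [_root_.inv_eq_one] at this

theorem novec {s : ℕ} (hs : s.Prime) (hs2 : s ≠ 2) {g : ↥(Cfsg.Sz F m)} (hg : g ^ s = 1) (h1 : g ≠ 1) {v : Fin 4 → F} (hv : mat m g *ᵥ v = v) : v = 0 := by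
  haveI := Fact.mk hs
  rcases trich m g with h | ⟨x, k, hk, rfl⟩ | h
  · exact absurd h (not_unip_of_odd m (hs.odd_of_ne_two hs2) hg h1)
  · have h2 : mat m (T m k) *ᵥ (mat m x⁻¹ *ᵥ v) = mat m x⁻¹ *ᵥ v := by
      conv_rhs => rw [← hv]
      rw [mat_mul, mat_mul, ← Matrix.mulVec_mulVec, ← Matrix.mulVec_mulVec, mat_inv_vec]
    have h3 := T_novec m hk h2
    have h4 := mat_inv_vec m x⁻¹ v
    rw [h3, Matrix.mulVec_zero] at h4
    exact h4.symm
  · have h2 := fpf_prime m h hg
    rcases fix_all h2 hs2 (A := mat m g) (by rw [← mat_pow, hg, mat_one]) ⊤ (fun _ _ => trivial) with h3 | ⟨-, h3⟩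
    · exfalso
      apply h1
      apply mat_inj m
      rw [mat_one]
      apply Matrix.toLin'.injective
      ext i
      simp [h3 _ trivial]
    · exact h3 v trivial hv

theorem no_two_s {s : ℕ} (hs : s.Prime) (hs2 : s ≠ 2) {x t : ↥(Cfsg.Sz F m)} (hx : x ^ s = 1) (hx1 : x ≠ 1) (ht : t ^ 2 = 1) (ht1 : t ≠ 1) (hc : x * t = t * x) : False := by
  have h1 := not_unip_of_odd m (hs.odd_of_ne_two hs2) hx hx1
  obtain ⟨-, h2⟩ := cent_tor m h1
  have h3 := S3_odd (F := F) m h2
  have h4 : t ∈ Subgroup.centralizer {x} := Subgroup.mem_centralizer_singleton_iff.2 hc.symm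
  have h5 : t ^ Nat.card (Subgroup.centralizer {x}) = 1 := congrArg Subtype.val (pow_card_eq_one' (G := Subgroup.centralizer {x}) (x := ⟨t, h4⟩))
  obtain ⟨n, hn⟩ := h3
  rw [hn, pow_add, pow_mul, ht, one_pow, one_mul, pow_one] at h5
  exact ht1 h5

/-- the action on `n` copies of the natural module -/
def act (n : ℕ) : ↥(Cfsg.Sz F m) →* MulAut (Multiplicative (Fin n → Fin 4 → F)) where
  toFun g := {
    toFun := fun v => Multiplicative.ofAdd (fun i => mat m g *ᵥ (v.toAdd i))
    invFun := fun v => Multiplicative.ofAdd (fun i => mat m g⁻¹ *ᵥ (v.toAdd i))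
    left_inv := by
      intro v
      show Multiplicative.ofAdd (fun i => mat m g⁻¹ *ᵥ (mat m g *ᵥ (v.toAdd i))) = v
      simp only [mat_inv_vec]
      rfl
    right_inv := by
      intro v
      show Multiplicative.ofAdd (fun i => mat m g *ᵥ (mat m g⁻¹ *ᵥ (v.toAdd i))) = v
      have h : ∀ u : Fin 4 → F, mat m g *ᵥ (mat m g⁻¹ *ᵥ u) = u := by
        intro u
        have := mat_inv_vec m g⁻¹ u
        rwa [inv_inv] at this
      simp only [h]
      rfl
    map_mul' := by
      intro v w
      show Multiplicative.ofAdd (fun i => mat m g *ᵥ (v.toAdd i + w.toAdd i)) = _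
      simp only [Matrix.mulVec_add]
      rfl }
  map_one' := by
    apply MulEquiv.ext
    intro v
    show Multiplicative.ofAdd (fun i => mat m 1 *ᵥ (v.toAdd i)) = v
    have : mat m (1 : ↥(Cfsg.Sz F m)) = 1 := rfl
    simp only [this, Matrix.one_mulVec]
    rfl
  map_mul' g h := by
    apply MulEquiv.ext
    intro v
    show Multiplicative.ofAdd (fun i => mat m (g * h) *ᵥ (v.toAdd i)) = Multiplicative.ofAdd (fun i => mat m g *ᵥ (mat m h *ᵥ (v.toAdd i)))
    simp only [mat_mul, Matrix.mulVec_mulVec]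

theorem act_fix {n : ℕ} {s : ℕ} (hs : s.Prime) (hs2 : s ≠ 2) {g : ↥(Cfsg.Sz F m)} (hg : g ^ s = 1) (h1 : g ≠ 1) {v : Multiplicative (Fin n → Fin 4 → F)} (hv : act m n g v = v) : v = 1 := by
  have h2 : ∀ i, mat m g *ᵥ (v.toAdd i) = v.toAdd i := fun i => congrFun (congrArg Multiplicative.toAdd hv) i
  have h3 : v.toAdd = 0 := by
    funext i
    exact novec m hs hs2 hg h1 (h2 i)
  exact h3

abbrev HH (F : Type*) [Field F] [Fintype F] (m : ℕ) [H : Hyp F m] (n : ℕ) := Multiplicative (Fin n → Fin 4 → F) ⋊[act (F := F) m n] ↥(Cfsg.Sz F m)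

instance (n : ℕ) : Finite (HH F m n) := Finite.of_equiv _ (SemidirectProduct.equivProd (φ := act (F := F) m n)).symm

theorem card_HH (n : ℕ) : Nat.card (HH F m n) = (2 ^ (2 * m + 1)) ^ (4 * n) * Nat.card ↥(Cfsg.Sz F m) := by
  rw [SemidirectProduct.card]
  congr 1
  show Nat.card (Fin n → Fin 4 → F) = _
  rw [Nat.card_fun, Nat.card_fun, Nat.card_eq_fintype_card (α := F), H.hF, Nat.card_eq_fintype_card (α := Fin n), Nat.card_eq_fintype_card (α := Fin 4), Fintype.card_fin, Fintype.card_fin, ← pow_mul]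

/-- the kernel has exponent two -/
theorem ker_sq {n : ℕ} {y : HH F m n} (hy : y.right = 1) : y * y = 1 := by
  have h1 : y = SemidirectProduct.inl y.left := by
    apply SemidirectProduct.ext
    · rfl
    · exact hy
  rw [h1, ← map_mul]
  have h2 : y.left * y.left = 1 := by
    show Multiplicative.ofAdd (y.left.toAdd + y.left.toAdd) = _
    have : y.left.toAdd + y.left.toAdd = 0 := by
      funext i j
      exact add_self m _
    rw [this]; rfl
  rw [h2, map_one]

theorem graph (n : ℕ) {r s : ℕ} (hr : r.Prime) (hs : s.Prime) (hrs : r ≠ s) : (∃ x : ↥(Cfsg.Sz F m), orderOf x = r * s) ↔ ∃ y : HH F m n, orderOf y = r * s := by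
  have key : ∀ s : ℕ, s.Prime → s ≠ 2 → ∀ y : HH F m n, orderOf y = 2 * s → False := by
    intro s hs hs2 y hy
    have hx : orderOf (y ^ 2) = s := by
      rw [orderOf_pow' y two_ne_zero, hy, Nat.gcd_eq_right (dvd_mul_right 2 s), Nat.mul_div_cancel_left _ two_pos]
    have ht : orderOf (y ^ s) = 2 := by
      rw [orderOf_pow' y hs.ne_zero, hy, Nat.gcd_eq_right (dvd_mul_left s 2), Nat.mul_div_cancel _ hs.pos]
    obtain ⟨x, hxd⟩ : ∃ x, x = y ^ 2 := ⟨_, rfl⟩
    obtain ⟨t, htd⟩ : ∃ t, t = y ^ s := ⟨_, rfl⟩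
    rw [← hxd] at hx
    rw [← htd] at ht
    have hc : x * t = t * x := by
      rw [hxd, htd, ← pow_add, ← pow_add, add_comm]
    have hx1 : x.right ≠ 1 := by
      intro h
      have h1 := ker_sq m h
      rw [← sq] at h1
      have h2 := orderOf_dvd_of_pow_eq_one h1
      rw [hx] at h2
      exact hs2 ((Nat.prime_dvd_prime_iff_eq hs Nat.prime_two).1 h2)
    have hxs : x.right ^ s = 1 := by
      have : SemidirectProduct.rightHom (x ^ s) = (1 : ↥(Cfsg.Sz F m)) := by rw [← hx, pow_orderOf_eq_one, map_one]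
      rwa [map_pow] at this
    have hcr : x.right * t.right = t.right * x.right := by
      have := congrArg (fun z : HH F m n => z.right) hc
      exact this
    have htr : t.right ^ 2 = 1 := by
      have : SemidirectProduct.rightHom (t ^ 2) = (1 : ↥(Cfsg.Sz F m)) := by rw [← ht, pow_orderOf_eq_one, map_one]
      rwa [map_pow] at this
    have ht1 : t.right = 1 := by
      by_contra hne
      exact no_two_s m hs hs2 hxs hx1 htr hne hcr
    -- t in the kernel is fixed by x
    have h5 : act m n x.right t.left = t.left := by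
      have h6 := congrArg (fun z : HH F m n => z.left) hc
      have h7 : x.left * act m n x.right t.left = t.left * act m n t.right x.left := h6
      rw [ht1, map_one] at h7
      have h8 : x.left * act m n x.right t.left = x.left * t.left := by
        rw [h7, mul_comm x.left]; rfl
      exact mul_left_cancel h8
    have h9 := act_fix m hs hs2 hxs hx1 h5
    have h10 : t = 1 := by
      apply SemidirectProduct.ext
      · exact h9
      · exact ht1
    rw [h10, orderOf_one] at ht
    omega
  constructor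
  · rintro ⟨x, hx⟩
    refine ⟨SemidirectProduct.inr x, ?_⟩
    rw [orderOf_injective _ SemidirectProduct.inr_injective, hx]
  · rintro ⟨y, hy⟩
    by_cases hr2 : r = 2
    · exact (key s hs (fun h => hrs (by rw [hr2, h])) y (by rw [hy, hr2])).elim
    by_cases hs2 : s = 2
    · exact (key r hr hr2 y (by rw [hy, hs2, mul_comm])).elim
    refine ⟨y.right, ?_⟩
    have h1 : orderOf y.right ∣ r * s := by
      rw [← hy]
      exact orderOf_map_dvd SemidirectProduct.rightHom y
    have h2 : r * s ∣ orderOf y.right * 2 := by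
      rw [← hy]
      apply orderOf_dvd_of_pow_eq_one
      rw [pow_mul, sq]
      apply ker_sq m
      have : SemidirectProduct.rightHom (y ^ orderOf y.right) = (1 : ↥(Cfsg.Sz F m)) := by
        rw [map_pow]
        exact pow_orderOf_eq_one y.right
      exact this
    have h3 : Nat.Coprime (r * s) 2 := by
      apply Nat.Coprime.mul_left
      · exact (Nat.coprime_primes hr Nat.prime_two).2 hr2
      · exact (Nat.coprime_primes hs Nat.prime_two).2 hs2
    exact Nat.dvd_antisymm h1 (h3.dvd_of_dvd_mul_right h2)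

theorem exists_type0 (G : Type*) [Group G] [Finite G] : ∃ (K : Type) (_ : Group K) (_ : Fintype K), Nonempty (K ≃* G) := by
  let e : Fin (Nat.card G) ≃ G := (Finite.equivFin G).symm
  letI := e.group
  exact ⟨Fin (Nat.card G), inferInstance, inferInstance, ⟨e.mulEquiv⟩⟩

end Cfsg.Agent.H8.Suz
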