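import Mathlib
import Cfsg.Agent.H8.SzP

set_option autoImplicit false

namespace Cfsg.Agent.H8.Suz

open Matrix
open scoped Pointwise

section run

variable {R : Type*} [CommRing R]

def stp (s : ℕ) (c : R) (v : Fin 4 → R) : Fin 4 → R := ![v 3 + c * v 1 + c ^ s * v 0, v 2 + c * v 0, v 1, v 0]

def run (s : ℕ) (b : ℕ → R) : ℕ → List ℕ → (Fin 4 → R)
  | _, [] => ![1, 0, 0, 0]
  | j, (j' :: L) => stp s (b j + b j') (run s b j' L)

theorem run_map {S : Type*} [CommRing S] (φ : R →+* S) (s : ℕ) (b : ℕ → R) (j : ℕ) (L : List ℕ) (i : Fin 4) :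
    run s (fun n => φ (b n)) j L i = φ (run s b j L i) := by
  induction L generalizing j i with
  | nil =>
    fin_cases i <;> simp [run]
  | cons j' L ih =>
    have h0 := ih j' 0
    have h1 := ih j' 1
    have h2 := ih j' 2
    have h3 := ih j' 3
    fin_cases i <;> simp [run, stp, h0, h1, h2, h3]

end run

section deg

open Polynomial

variable {F : Type*} [Field F]

theorem deg_X {a b : ℕ} (h : a ≠ b) : ((X : F[X]) ^ (a + 1) + X ^ (b + 1)).degree = ((max a b + 1 : ℕ) : WithBot ℕ) := by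
  rcases Nat.lt_or_ge a b with h1 | h1
  · rw [degree_add_eq_right_of_degree_lt]
    · rw [degree_X_pow, max_eq_right h1.le]
    · rw [degree_X_pow, degree_X_pow]
      exact_mod_cast Nat.succ_lt_succ h1
  · have h2 : b < a := lt_of_le_of_ne h1 (Ne.symm h)
    rw [degree_add_eq_left_of_degree_lt]
    · rw [degree_X_pow, max_eq_left h2.le]
    · rw [degree_X_pow, degree_X_pow]
      exact_mod_cast Nat.succ_lt_succ h2

/-- the degree invariant -/
def Inv (v : Fin 4 → F[X]) (D : ℕ) : Prop := (v 0).degree = (D : WithBot ℕ) ∧ (v 1).degree < (D : WithBot ℕ) ∧ (v 2).degree < (D : WithBot ℕ) ∧ (v 3).degree < (D : WithBot ℕ)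

theorem inv_stp {s : ℕ} (hs : 2 ≤ s) {c : F[X]} {d : ℕ} (hd : 1 ≤ d) (hc : c.degree = (d : WithBot ℕ)) {v : Fin 4 → F[X]} {D : ℕ} (hv : Inv v D) :
    Inv (stp s c v) (s * d + D) := by
  obtain ⟨h0, h1, h2, h3⟩ := hv
  have hlt : d + D < s * d + D := by nlinarith
  have hlt0 : D < s * d + D := by nlinarith
  have e1 : (c ^ s * v 0).degree = ((s * d + D : ℕ) : WithBot ℕ) := by
    rw [degree_mul, degree_pow, hc, h0]
    push_cast
    rw [nsmul_eq_mul]
  have e2 : (v 3 + c * v 1).degree < ((s * d + D : ℕ) : WithBot ℕ) := by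
    refine lt_of_le_of_lt (degree_add_le _ _) (max_lt (h3.trans ?_) ?_)
    · exact_mod_cast hlt0
    · rw [degree_mul, hc]
      calc (d : WithBot ℕ) + (v 1).degree ≤ (d : WithBot ℕ) + (D : WithBot ℕ) := by gcongr
        _ < _ := by exact_mod_cast hlt
  have e3 : (v 2 + c * v 0).degree < ((s * d + D : ℕ) : WithBot ℕ) := by
    refine lt_of_le_of_lt (degree_add_le _ _) (max_lt (h2.trans ?_) ?_)
    · exact_mod_cast hlt0
    · rw [degree_mul, hc, h0]
      exact_mod_cast hlt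
  refine ⟨?_, ?_, ?_, ?_⟩
  · show (v 3 + c * v 1 + c ^ s * v 0).degree = _
    rw [degree_add_eq_right_of_degree_lt (by rw [e1]; exact e2), e1]
  · exact e3
  · show (v 1).degree < _
    exact h1.trans (by exact_mod_cast hlt0)
  · show (v 0).degree < _
    rw [h0]
    exact_mod_cast hlt0

theorem inv_run {s : ℕ} (hs : 2 ≤ s) {J : ℕ} (L : List ℕ) (j : ℕ) (hch : (j :: L).IsChain (· ≠ ·)) (hJ : ∀ i ∈ j :: L, i ≤ J) :
    ∃ D : ℕ, D ≤ s * (L.length * (J + 1)) ∧ Inv (run s (fun n => (X : F[X]) ^ (n + 1)) j L) D := by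
  induction L generalizing j with
  | nil =>
    refine ⟨0, by simp, ?_⟩
    refine ⟨?_, ?_, ?_, ?_⟩ <;> simp [run]
  | cons j' L ih =>
    rw [List.isChain_cons_cons] at hch
    obtain ⟨D, hD, hinv⟩ := ih j' hch.2 (fun i hi => hJ i (List.mem_cons_of_mem _ hi))
    have hd := deg_X (F := F) hch.1
    refine ⟨s * (max j j' + 1) + D, ?_, inv_stp hs (by omega) hd hinv⟩
    have h1 : max j j' ≤ J := max_le (hJ j (by simp)) (hJ j' (by simp))
    rw [List.length_cons]
    calc s * (max j j' + 1) + D ≤ s * (J + 1) + s * (L.length * (J + 1)) := Nat.add_le_add (Nat.mul_le_mul_left _ (by omega)) hD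
      _ = s * ((L.length + 1) * (J + 1)) := by ring

end deg

variable {F : Type*} [Field F] [Fintype F] (m : ℕ) [H : Hyp F m]

theorem U0_vec (c : F) (v : Fin 4 → F) : mat m (U m 0 c) *ᵥ v = ![v 0 + c * v 2 + c ^ (2 ^ (m + 1)) * v 3, v 1 + c * v 3, v 2, v 3] := by
  have h1 : mat m (U m 0 c) = Um m 0 c := rfl
  rw [h1]
  ext i
  have h2 : ff m (0 : F) c = c ^ (2 ^ (m + 1)) := by
    unfold ff
    rw [th_zero]
    show 0 * c + 0 * 0 ^ 2 + th m c = _
    rw [zero_mul, zero_mul, zero_add, zero_add]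
    rfl
  fin_cases i <;> simp [Um, Matrix.mulVec, dotProduct, Fin.sum_univ_four, th_zero, h2]

theorem W_vec (v : Fin 4 → F) : mat m (W F m) *ᵥ v = ![v 3, v 2, v 1, v 0] := by
  have h1 : mat m (W F m) = Wm F := rfl
  rw [h1]
  ext i
  fin_cases i <;> simp [Wm, Matrix.mulVec, dotProduct, Fin.sum_univ_four]

theorem UW_vec (c : F) (v : Fin 4 → F) : mat m (U m 0 c) *ᵥ (mat m (W F m) *ᵥ v) = stp (2 ^ (m + 1)) c v := by
  rw [W_vec, U0_vec]
  rfl

/-- the involutions -/
def zz (t : F) (j : ℕ) : ↥(Cfsg.Sz F m) := U m 0 (t ^ (j + 1)) * W F m * U m 0 (t ^ (j + 1))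

theorem U0_sq (b : F) : U m 0 b * U m 0 b = 1 := by rw [U_sq, mul_zero, U_zero]

theorem zz_sq (t : F) (j : ℕ) : zz m t j * zz m t j = 1 := by
  unfold zz
  calc U m 0 (t ^ (j + 1)) * W F m * U m 0 (t ^ (j + 1)) * (U m 0 (t ^ (j + 1)) * W F m * U m 0 (t ^ (j + 1)))
      = U m 0 (t ^ (j + 1)) * W F m * (U m 0 (t ^ (j + 1)) * U m 0 (t ^ (j + 1))) * W F m * U m 0 (t ^ (j + 1)) := by group
    _ = U m 0 (t ^ (j + 1)) * (W F m * W F m) * U m 0 (t ^ (j + 1)) := by rw [U0_sq]; group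
    _ = 1 := by rw [W_mul, mul_one, U0_sq]

theorem prodz_vec (t : F) (j : ℕ) (L : List ℕ) : mat m (((j :: L).map (zz m t)).prod) *ᵥ ![1, 0, 0, 0] =
    mat m (U m 0 (t ^ (j + 1))) *ᵥ (mat m (W F m) *ᵥ (run (2 ^ (m + 1)) (fun n => t ^ (n + 1)) j L)) := by
  induction L generalizing j with
  | nil =>
    rw [List.map_cons, List.map_nil, List.prod_cons, List.prod_nil, mul_one]
    unfold zz
    rw [mat_mul, mat_mul, ← Matrix.mulVec_mulVec, ← Matrix.mulVec_mulVec]
    congr 2
    rw [U0_vec]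
    ext i
    fin_cases i <;> simp [run]
  | cons j' L ih =>
    rw [List.map_cons, List.prod_cons, mat_mul, ← Matrix.mulVec_mulVec, ih]
    unfold zz
    rw [mat_mul, mat_mul, ← Matrix.mulVec_mulVec, ← Matrix.mulVec_mulVec]
    congr 2
    rw [Matrix.mulVec_mulVec _ (mat m (U m 0 (t ^ (j + 1)))) (mat m (U m 0 (t ^ (j' + 1)))), ← mat_mul, U_mul, add_zero, mul_zero, add_zero, UW_vec]
    rfl

open Polynomial in
theorem prodz_ne (j j' : ℕ) (L : List ℕ) {J : ℕ} (hch : (j :: j' :: L).IsChain (· ≠ ·)) (hJ : ∀ i ∈ j :: j' :: L, i ≤ J) (hm : (j' :: L).length * (J + 1) < 2 ^ m) :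
    ∃ t : F, ((j :: j' :: L).map (zz m t)).prod ≠ 1 := by
  have hs : 2 ≤ 2 ^ (m + 1) := by
    have := Nat.one_le_two_pow (n := m)
    rw [pow_succ]; omega
  obtain ⟨D, hD, hinv⟩ := inv_run (F := F) hs (j' :: L) j hch hJ
  obtain ⟨P, hP⟩ : ∃ P, P = run (2 ^ (m + 1)) (fun n => (X : F[X]) ^ (n + 1)) j (j' :: L) 0 := ⟨_, rfl⟩
  have hdeg : P.degree = (D : WithBot ℕ) := by rw [hP]; exact hinv.1
  have hP0 : P ≠ 0 := by
    intro h
    rw [h, degree_zero] at hdeg
    exact WithBot.bot_ne_coe hdeg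
  have hlt : P.natDegree < Fintype.card F := by
    rw [natDegree_eq_of_degree_eq_some hdeg, H.hF]
    calc D ≤ 2 ^ (m + 1) * ((j' :: L).length * (J + 1)) := hD
      _ < 2 ^ (m + 1) * 2 ^ m := Nat.mul_lt_mul_of_pos_left hm (by positivity)
      _ = 2 ^ (2 * m + 1) := by rw [← pow_add]; congr 1; ring
  obtain ⟨t, ht⟩ := Polynomial.exists_eval_ne_zero_of_natDegree_lt_card P hP0 (by rw [Cardinal.mk_fintype]; exact_mod_cast hlt)
  refine ⟨t, ?_⟩
  intro h
  have h1 := prodz_vec m t j (j' :: L)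
  rw [h] at h1
  have h2 : mat m (1 : ↥(Cfsg.Sz F m)) = 1 := rfl
  rw [h2, Matrix.one_mulVec, U0_vec, W_vec] at h1
  have e3 := congrFun h1 3
  have h4 : run (2 ^ (m + 1)) (fun n => t ^ (n + 1)) j (j' :: L) 0 = P.eval t := by
    have := run_map (Polynomial.evalRingHom t) (2 ^ (m + 1)) (fun n => (X : F[X]) ^ (n + 1)) j (j' :: L) 0
    rw [hP, ← Polynomial.coe_evalRingHom, ← this]
    congr 1
    funext n
    simp
  apply ht
  rw [← h4]
  simpa using e3.symm

/-- the sequence of involutions of a word -/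
def seq : List (ℕ × Bool) → List ℕ
  | [] => []
  | (i, true) :: L => 2 * i :: (2 * i + 1) :: seq L
  | (i, false) :: L => (2 * i + 1) :: 2 * i :: seq L

theorem seq_chain (L : List (ℕ × Bool)) (h : FreeGroup.IsReduced L) : (seq L).IsChain (· ≠ ·) := by
  induction L with
  | nil => exact List.isChain_nil
  | cons x L ih =>
    cases L with
    | nil =>
      obtain ⟨i, b⟩ := x
      cases b <;> simp [seq]
    | cons y L =>
      rw [FreeGroup.IsReduced, List.isChain_cons_cons] at h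
      have h1 := ih h.2
      obtain ⟨i, b⟩ := x
      obtain ⟨i', b'⟩ := y
      have h2 : i = i' → b = b' := h.1
      cases b <;> cases b' <;> simp only [seq, List.isChain_cons_cons] at h1 ⊢ <;> refine ⟨by omega, ?_, h1.1, h1.2⟩ <;> intro h3
      · omega
      · have : i = i' := by omega
        exact absurd (h2 this) (by simp)
      · have : i = i' := by omega
        exact absurd (h2 this) (by simp)
      · omega

theorem seq_prod (t : F) (L : List (ℕ × Bool)) :
    (L.map (fun x => cond x.2 (zz m t (2 * x.1) * zz m t (2 * x.1 + 1)) (zz m t (2 * x.1) * zz m t (2 * x.1 + 1))⁻¹)).prod = ((seq L).map (zz m t)).prod := by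
  induction L with
  | nil => rfl
  | cons x L ih =>
    obtain ⟨i, b⟩ := x
    have hinv : ∀ j, (zz m t j)⁻¹ = zz m t j := fun j => inv_eq_of_mul_eq_one_left (zz_sq m t j)
    cases b
    · rw [List.map_cons, List.prod_cons, ih]
      simp only [seq, List.map_cons, List.prod_cons, cond_false]
      rw [_root_.mul_inv_rev, hinv, hinv, mul_assoc]
    · rw [List.map_cons, List.prod_cons, ih]
      simp only [seq, List.map_cons, List.prod_cons, cond_true]
      rw [mul_assoc]

end Cfsg.Agent.H8.Suz
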