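import Mathlib
import Cfsg.Agent.H8.SL2c

set_option autoImplicit false

namespace Cfsg.Agent.H8.VSL

open Matrix

section
variable {F : Type*} [Field F]

abbrev SL (F : Type*) [Field F] := Matrix.SpecialLinearGroup (Fin 2) F

variable (F) in
/-- k copies of the natural module -/
abbrev Vk (k : ℕ) := Fin k → Fin 2 → F

/-- action -/
def ph (k : ℕ) : SL F →* MulAut (Multiplicative (Vk F k)) := MonoidHom.mk' (fun g =>
  { toFun := fun v => Multiplicative.ofAdd (fun i => (g : Matrix (Fin 2) (Fin 2) F) *ᵥ (Multiplicative.toAdd v i))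
    invFun := fun v => Multiplicative.ofAdd (fun i => ((g⁻¹ : SL F) : Matrix (Fin 2) (Fin 2) F) *ᵥ (Multiplicative.toAdd v i))
    left_inv := fun v => by
      show (fun i => ((g⁻¹ : SL F) : Matrix (Fin 2) (Fin 2) F) *ᵥ ((g : Matrix (Fin 2) (Fin 2) F) *ᵥ (Multiplicative.toAdd v i))) = Multiplicative.toAdd v
      funext i
      rw [Matrix.mulVec_mulVec, ← Matrix.SpecialLinearGroup.coe_mul, inv_mul_cancel, Matrix.SpecialLinearGroup.coe_one, Matrix.one_mulVec]
    right_inv := fun v => by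
      show (fun i => (g : Matrix (Fin 2) (Fin 2) F) *ᵥ (((g⁻¹ : SL F) : Matrix (Fin 2) (Fin 2) F) *ᵥ (Multiplicative.toAdd v i))) = Multiplicative.toAdd v
      funext i
      rw [Matrix.mulVec_mulVec, ← Matrix.SpecialLinearGroup.coe_mul, mul_inv_cancel, Matrix.SpecialLinearGroup.coe_one, Matrix.one_mulVec]
    map_mul' := fun v w => by
      show (fun i => (g : Matrix (Fin 2) (Fin 2) F) *ᵥ (Multiplicative.toAdd v i + Multiplicative.toAdd w i)) =
        (fun i => (g : Matrix (Fin 2) (Fin 2) F) *ᵥ (Multiplicative.toAdd v i) + (g : Matrix (Fin 2) (Fin 2) F) *ᵥ (Multiplicative.toAdd w i))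
      funext i
      rw [Matrix.mulVec_add] }) (fun g h => by
    ext1 v
    show (fun i => ((g * h : SL F) : Matrix (Fin 2) (Fin 2) F) *ᵥ (Multiplicative.toAdd v i)) =
      (fun i => (g : Matrix (Fin 2) (Fin 2) F) *ᵥ ((h : Matrix (Fin 2) (Fin 2) F) *ᵥ (Multiplicative.toAdd v i)))
    funext i
    rw [Matrix.mulVec_mulVec, ← Matrix.SpecialLinearGroup.coe_mul])

theorem ph_apply (k : ℕ) (g : SL F) (v : Multiplicative (Vk F k)) (i : Fin k) :
    Multiplicative.toAdd (ph k g v) i = (g : Matrix (Fin 2) (Fin 2) F) *ᵥ (Multiplicative.toAdd v i) := rfl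

theorem fix_sq [CharP F 2] {g : SL F} {w : Fin 2 → F} (hw : w ≠ 0) (h : (g : Matrix (Fin 2) (Fin 2) F) *ᵥ w = w) : g ^ 2 = 1 := by
  have h1 : ((g : Matrix (Fin 2) (Fin 2) F) - 1).det = 0 := Matrix.exists_mulVec_eq_zero_iff.1 ⟨w, hw, by rw [Matrix.sub_mulVec, h, Matrix.one_mulVec, sub_self]⟩
  have h2 := g.2
  have h20 : (2 : F) = 0 := CharTwo.two_eq_zero
  obtain ⟨M, hM⟩ : ∃ M : Matrix (Fin 2) (Fin 2) F, M = g := ⟨_, rfl⟩
  rw [← hM] at h1 h2
  rw [Matrix.det_fin_two] at h1 h2
  simp only [Matrix.sub_apply, Matrix.one_apply, if_true, Fin.isValue, zero_ne_one, one_ne_zero, if_false, sub_zero] at h1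
  apply Subtype.ext
  rw [Matrix.SpecialLinearGroup.coe_pow, Matrix.SpecialLinearGroup.coe_one, ← hM]
  have h3 : M 0 0 + M 1 1 = 0 := by linear_combination h2 - h1 + h20
  ext i j
  rw [pow_two, Matrix.mul_apply, Fin.sum_univ_two]
  fin_cases i <;> fin_cases j
  · show M 0 0 * M 0 0 + M 0 1 * M 1 0 = 1
    linear_combination M 0 0 * h3 - h2 - h20
  · show M 0 0 * M 0 1 + M 0 1 * M 1 1 = 0
    linear_combination M 0 1 * h3
  · show M 1 0 * M 0 0 + M 1 1 * M 1 0 = 0
    linear_combination M 1 0 * h3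
  · show M 1 0 * M 0 1 + M 1 1 * M 1 1 = 1
    linear_combination M 1 1 * h3 - h2 - h20

theorem inl_sq [CharP F 2] {k : ℕ} (v : Multiplicative (Vk F k)) : v ^ 2 = 1 := by
  rw [pow_two]
  show (fun i => Multiplicative.toAdd v i + Multiplicative.toAdd v i) = fun _ => (0 : Fin 2 → F)
  funext i j
  exact CharTwo.add_self_eq_zero _

theorem order_down [CharP F 2] {k : ℕ} {p q : ℕ} (hp : p.Prime) (hq : q.Prime) (hpq : p ≠ q) (x : Multiplicative (Vk F k) ⋊[ph k] SL F)
    (hx : orderOf x = p * q) : ∃ g : SL F, orderOf g = p * q := by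
  have key : ∀ (r : ℕ), r.Prime → r ≠ 2 → orderOf x = 2 * r → orderOf (SemidirectProduct.rightHom x) = r → False := by
    intro r hr hr2 hxr hn
    have h1 : SemidirectProduct.rightHom (x ^ r) = 1 := by rw [map_pow, ← hn, pow_orderOf_eq_one]
    have h2 : x ^ r ∈ (SemidirectProduct.inl : Multiplicative (Vk F k) →* Multiplicative (Vk F k) ⋊[ph k] SL F).range := by
      rw [SemidirectProduct.range_inl_eq_ker_rightHom]; exact h1
    obtain ⟨v, hv⟩ := h2
    have hv1 : v ≠ 1 := by
      rintro rfl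
      rw [map_one] at hv
      have := orderOf_dvd_of_pow_eq_one hv.symm
      rw [hxr] at this
      have := Nat.le_of_dvd hr.pos this
      have := hr.pos
      omega
    have h3 : x * SemidirectProduct.inl v = SemidirectProduct.inl v * x := by
      rw [hv]; exact (Commute.self_pow x r)
    have h4 : ph k x.right v = v := by
      have h5 := congrArg (fun t => t.left) h3
      simp only [SemidirectProduct.mul_left, SemidirectProduct.left_inl, SemidirectProduct.right_inl, map_one, MulAut.one_apply] at h5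
      rw [mul_comm] at h5
      exact mul_right_cancel h5
    obtain ⟨i, hi⟩ : ∃ i, Multiplicative.toAdd v i ≠ 0 := by
      by_contra hcon
      push Not at hcon
      exact hv1 (funext hcon)
    have h6 : (x.right : Matrix (Fin 2) (Fin 2) F) *ᵥ (Multiplicative.toAdd v i) = Multiplicative.toAdd v i := by
      rw [← ph_apply, h4]
    have h7 := fix_sq hi h6
    have h8 : r ∣ 2 := by rw [← hn]; exact orderOf_dvd_of_pow_eq_one h7
    exact hr2 ((Nat.prime_dvd_prime_iff_eq hr Nat.prime_two).1 h8)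
  obtain ⟨n, hn⟩ : ∃ n, n = orderOf (SemidirectProduct.rightHom x) := ⟨_, rfl⟩
  have h1 : n ∣ p * q := by rw [hn, ← hx]; exact orderOf_map_dvd _ x
  have h2 : p * q ∣ 2 * n := by
    rw [← hx]
    apply orderOf_dvd_of_pow_eq_one
    have h3 : SemidirectProduct.rightHom (x ^ n) = 1 := by rw [map_pow, hn, pow_orderOf_eq_one]
    have h4 : x ^ n ∈ (SemidirectProduct.inl : Multiplicative (Vk F k) →* Multiplicative (Vk F k) ⋊[ph k] SL F).range := by
      rw [SemidirectProduct.range_inl_eq_ker_rightHom]; exact h3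
    obtain ⟨v, hv⟩ := h4
    rw [mul_comm, pow_mul, ← hv, ← map_pow, inl_sq, map_one]
  by_cases hnn : n = p * q
  · exact ⟨_, hn.symm.trans hnn⟩
  · exfalso
    obtain ⟨d, hd⟩ := h1
    have hpq0 : 0 < p * q := Nat.mul_pos hp.pos hq.pos
    have hn0 : 0 < n := by
      rcases Nat.eq_zero_or_pos n with h | h
      · rw [h] at hd; omega
      · exact h
    have hd2 : d = 2 := by
      obtain ⟨e, he⟩ := h2
      rw [hd] at he
      have h5 : 2 * n = n * (d * e) := by rw [he]; ring
      have h6 : d * e = 2 := by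
        have : n * 2 = n * (d * e) := by rw [← h5]; ring
        exact (Nat.eq_of_mul_eq_mul_left hn0 this).symm
      have h7 : d ∣ 2 := ⟨e, h6.symm⟩
      rcases (Nat.dvd_prime Nat.prime_two).1 h7 with h | h
      · exact absurd (by rw [hd, h, mul_one]) hnn
      · exact h
    rw [hd2] at hd
    have h8 : 2 ∣ p * q := ⟨n, by rw [hd]; ring⟩
    rcases (Nat.Prime.dvd_mul Nat.prime_two).1 h8 with h | h
    · have hp2 : p = 2 := ((Nat.prime_dvd_prime_iff_eq Nat.prime_two hp).1 h).symm
      subst hp2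
      have hnq : n = q := by omega
      exact key q hq (Ne.symm hpq) hx (hn.symm.trans hnq)
    · have hq2 : q = 2 := ((Nat.prime_dvd_prime_iff_eq Nat.prime_two hq).1 h).symm
      subst hq2
      have hnq : n = p := by omega
      exact key p hp hpq (by rw [hx]; ring) (hn.symm.trans hnq)

theorem order_up {k : ℕ} {n : ℕ} (g : SL F) (hg : orderOf g = n) : ∃ x : Multiplicative (Vk F k) ⋊[ph k] SL F, orderOf x = n :=
  ⟨SemidirectProduct.inr g, by rw [orderOf_injective _ SemidirectProduct.inr_injective, hg]⟩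

theorem two_dvd [Finite F] [CharP F 2] : 2 ∣ Nat.card (SL F) := by
  let g : SL F := ⟨!![1, 1; 0, 1], by simp [Matrix.det_fin_two]⟩
  have h1 : g ^ 2 = 1 := by
    apply Subtype.ext
    rw [Matrix.SpecialLinearGroup.coe_pow, Matrix.SpecialLinearGroup.coe_one]
    show !![1, 1; 0, 1] ^ 2 = (1 : Matrix (Fin 2) (Fin 2) F)
    ext i j
    have : (1 : F) + 1 = 0 := CharTwo.add_self_eq_zero _
    fin_cases i <;> fin_cases j <;> simp [pow_two, Matrix.mul_apply, Fin.sum_univ_two, this]
  have h2 : g ≠ 1 := by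
    intro h
    have := congrArg (fun t : SL F => (t : Matrix (Fin 2) (Fin 2) F) 0 1) h
    simp [g] at this
  have h3 : orderOf g = 2 := orderOf_eq_prime h1 h2
  rw [← h3]
  exact orderOf_dvd_natCard g

instance instFinH [Finite F] (k : ℕ) : Finite (Multiplicative (Vk F k) ⋊[ph k] SL F) :=
  haveI : Finite (Multiplicative (Vk F k)) := inferInstanceAs (Finite (Vk F k))
  Finite.of_equiv _ (SemidirectProduct.equivProd (φ := ph (F := F) k)).symm

theorem card_H [Finite F] (k : ℕ) : Nat.card (Multiplicative (Vk F k) ⋊[ph k] SL F) = Nat.card (Vk F k) * Nat.card (SL F) := by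
  rw [Nat.card_congr (SemidirectProduct.equivProd), Nat.card_prod]; rfl

theorem card_V [Finite F] (k : ℕ) : Nat.card (Vk F k) = (Nat.card F ^ 2) ^ k := by
  rw [Nat.card_fun, Nat.card_fun, Nat.card_fin, Nat.card_fin]

theorem prime_iff [Finite F] [CharP F 2] (k : ℕ) {p : ℕ} (hp : p.Prime) :
    p ∣ Nat.card (SL F) ↔ p ∣ Nat.card (Multiplicative (Vk F k) ⋊[ph k] SL F) := by
  rw [card_H]
  constructor
  · intro h; exact h.mul_left _
  · intro h
    rcases (Nat.Prime.dvd_mul hp).1 h with h | h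
    · rw [card_V] at h
      have h2 := hp.dvd_of_dvd_pow (hp.dvd_of_dvd_pow h)
      haveI := Fintype.ofFinite F
      obtain ⟨n, -, hn⟩ := FiniteField.card F 2
      rw [Nat.card_eq_fintype_card, hn] at h2
      have h3 := (Nat.prime_dvd_prime_iff_eq hp Nat.prime_two).1 (hp.dvd_of_dvd_pow h2)
      rw [h3]
      exact two_dvd
    · exact h

theorem big [Finite F] (N : ℕ) : N < Nat.card (Multiplicative (Vk F (N + 1)) ⋊[ph (N + 1)] SL F) := by
  rw [card_H, card_V]
  have h1 : 2 ≤ Nat.card F := Finite.one_lt_card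
  have h2 : 0 < Nat.card (SL F) := Nat.card_pos
  have h3 : 2 ≤ Nat.card F ^ 2 := by nlinarith
  have h4 : N + 1 < 2 ^ (N + 1) := Nat.lt_two_pow_self
  have h5 : 2 ^ (N + 1) ≤ (Nat.card F ^ 2) ^ (N + 1) := Nat.pow_le_pow_left h3 _
  nlinarith

end

end Cfsg.Agent.H8.VSL
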